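import Mathlib
import Cfsg.Prelude.Def_LocalEven
import Cfsg.Agent.Lib.Lead.SL2Sylow
import Cfsg.Agent.Lib.Helper3.ConjFam

set_option autoImplicit false

namespace Cfsg.Agent.Lib.Helper3

/-- all `p`-subgroups are commutative -/
def AbP (p : ℕ) (G : Type*) [Group G] : Prop :=
  ∀ S : Subgroup G, IsPGroup p S → ∀ x ∈ S, ∀ y ∈ S, x * y = y * x

theorem abP_of_surjective {G H : Type*} [Group G] [Group H] [Finite G] {p : ℕ} [Fact p.Prime]
    (f : G →* H) (hf : Function.Surjective f) (hG : AbP p G) : AbP p H := by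
  intro B hB x hx y hy
  have hf' : Function.Surjective (f.subgroupComap B) :=
    f.subgroupComap_surjective_of_surjective B hf
  obtain ⟨S⟩ : Nonempty (Sylow p ↥(B.comap f)) := inferInstance
  have hS : ((S.mapSurjective hf' : Sylow p ↥B) : Subgroup ↥B) = ⊤ :=
    ((S.mapSurjective hf').is_maximal' (Q := ⊤) (hB.of_equiv Subgroup.topEquiv.symm) le_top).symm
  rw [Sylow.coe_mapSurjective] at hS
  have hx' : (⟨x, hx⟩ : ↥B) ∈ (S : Subgroup ↥(B.comap f)).map (f.subgroupComap B) := by
    rw [hS]; exact Subgroup.mem_top _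
  have hy' : (⟨y, hy⟩ : ↥B) ∈ (S : Subgroup ↥(B.comap f)).map (f.subgroupComap B) := by
    rw [hS]; exact Subgroup.mem_top _
  obtain ⟨a, ha, hax⟩ := hx'
  obtain ⟨b, hb, hby⟩ := hy'
  have hSp : IsPGroup p ↥((S : Subgroup ↥(B.comap f)).map (B.comap f).subtype) := S.isPGroup'.map _
  have hab := hG _ hSp (a : G) ⟨a, ha, rfl⟩ (b : G) ⟨b, hb, rfl⟩
  have hax' : f (a : G) = x := congrArg Subtype.val hax
  have hby' : f (b : G) = y := congrArg Subtype.val hby
  rw [← hax', ← hby', ← map_mul, ← map_mul, hab]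

theorem abP_subgroup {G : Type*} [Group G] {p : ℕ} (K : Subgroup G) (hG : AbP p G) : AbP p ↥K := by
  intro S hS x hx y hy
  have hSp : IsPGroup p ↥(S.map K.subtype) := hS.map _
  have h := hG _ hSp (x : G) ⟨x, hx, rfl⟩ (y : G) ⟨y, hy, rfl⟩
  exact Subtype.ext h

/-- sections of a group with abelian `p`-subgroups have abelian `p`-subgroups -/
theorem abP_of_involves {G : Type*} [Group G] [Finite G] {H : Type*} [Group H] {p : ℕ} [Fact p.Prime]
    (hG : AbP p G) (hinv : Cfsg.Involves H G) : AbP p H := by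
  obtain ⟨K, R, hn, ⟨e⟩⟩ := hinv
  have h3 : AbP p ↥K := abP_subgroup K hG
  have h4 : AbP p (↥K ⧸ R.subgroupOf K) :=
    abP_of_surjective (QuotientGroup.mk' _) (QuotientGroup.mk'_surjective _) h3
  exact abP_of_surjective e.toMonoidHom e.surjective h4

theorem abP_SL2 (p : ℕ) [Fact p.Prime] {K : Type*} [Field K] [Fintype K] [CharP K p] :
    AbP p (Matrix.SpecialLinearGroup (Fin 2) K) := by
  intro S hS x hx y hy
  obtain ⟨P, hSP⟩ := hS.exists_le_sylow
  obtain ⟨g, hg⟩ := MulAction.exists_smul_eq (Matrix.SpecialLinearGroup (Fin 2) K) (Lead.PUS p) P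
  have key : ∀ w ∈ S, ∃ a : Multiplicative K, Lead.uSL a = g⁻¹ * w * g := by
    intro w hw
    have h1 : w ∈ ((g • Lead.PUS p : Sylow p (Matrix.SpecialLinearGroup (Fin 2) K)) :
        Subgroup (Matrix.SpecialLinearGroup (Fin 2) K)) := by rw [hg]; exact hSP hw
    rw [Sylow.coe_subgroup_smul, Lead.mem_conj_smul] at h1
    exact h1
  obtain ⟨a, ha⟩ := key x hx
  obtain ⟨b, hb⟩ := key y hy
  have h2 : (g⁻¹ * x * g) * (g⁻¹ * y * g) = (g⁻¹ * y * g) * (g⁻¹ * x * g) := by
    rw [← ha, ← hb, ← map_mul, ← map_mul, mul_comm]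
  have h3 : x * y = g * ((g⁻¹ * x * g) * (g⁻¹ * y * g)) * g⁻¹ := by group
  rw [h3, h2]; group

theorem sl_transvection_pow {n : Type*} [DecidableEq n] [Fintype n] {F : Type*} [Field F] {i j : n}
    (hij : i ≠ j) (b : F) (k : ℕ) :
    (Matrix.SpecialLinearGroup.transvection hij b) ^ k =
      Matrix.SpecialLinearGroup.transvection hij (k * b) := by
  induction k with
  | zero => simp [Matrix.SpecialLinearGroup.transvection_coeff_zero]
  | succ k ih =>
    rw [pow_succ, ih]
    apply Subtype.ext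
    show Matrix.transvection i j (k * b) * Matrix.transvection i j b =
      Matrix.transvection i j ((k + 1 : ℕ) * b)
    rw [Matrix.transvection_mul_transvection_same i j hij]
    congr 1; push_cast; ring

theorem isPGroup_zpowers_of_pow_eq_one {G : Type*} [Group G] {p : ℕ} [Fact p.Prime] {a : G}
    (ha : a ^ p = 1) : IsPGroup p ↥(Subgroup.zpowers a) := by
  have hd : Nat.card (Subgroup.zpowers a) ∣ p ^ 1 := by
    rw [Nat.card_zpowers, pow_one]; exact orderOf_dvd_of_pow_eq_one ha
  obtain ⟨k, -, hk⟩ := (Nat.dvd_prime_pow (Fact.out : p.Prime)).mp hd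
  exact IsPGroup.of_card hk

theorem zpowers_le_normalizer_zpowers_of_comm {G : Type*} [Group G] {a b : G} (hab : a * b = b * a) :
    Subgroup.zpowers b ≤ Subgroup.normalizer ((Subgroup.zpowers a : Subgroup G) : Set G) := by
  rw [Subgroup.zpowers_le]
  apply Subgroup.centralizer_le_normalizer
  rw [Subgroup.mem_centralizer_iff]
  intro g hg
  obtain ⟨k, rfl⟩ := Subgroup.mem_zpowers_iff.mp hg
  have hc : Commute a b := hab
  exact (hc.zpow_left k).eq

/-- `Qd(p)` has a non-abelian `p`-subgroup (the Heisenberg group) -/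
theorem qd_not_abP (p : ℕ) [Fact p.Prime] : ¬ AbP p ↥(Cfsg.qd p) := by
  intro h
  obtain ⟨x, hx⟩ : ∃ x : Matrix.SpecialLinearGroup (Fin 3) (ZMod p),
      x = Matrix.SpecialLinearGroup.transvection (show (0 : Fin 3) ≠ 1 by decide) 1 := ⟨_, rfl⟩
  obtain ⟨y, hy⟩ : ∃ y : Matrix.SpecialLinearGroup (Fin 3) (ZMod p),
      y = Matrix.SpecialLinearGroup.transvection (show (1 : Fin 3) ≠ 2 by decide) 1 := ⟨_, rfl⟩
  obtain ⟨z, hz⟩ : ∃ z : Matrix.SpecialLinearGroup (Fin 3) (ZMod p),
      z = Matrix.SpecialLinearGroup.transvection (show (0 : Fin 3) ≠ 2 by decide) 1 := ⟨_, rfl⟩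
  have hp0 : ((p : ℕ) : ZMod p) * 1 = 0 := by rw [mul_one]; exact ZMod.natCast_self p
  have hxp : x ^ p = 1 := by
    rw [hx, sl_transvection_pow, hp0, Matrix.SpecialLinearGroup.transvection_coeff_zero]
  have hyp : y ^ p = 1 := by
    rw [hy, sl_transvection_pow, hp0, Matrix.SpecialLinearGroup.transvection_coeff_zero]
  have hzp : z ^ p = 1 := by
    rw [hz, sl_transvection_pow, hp0, Matrix.SpecialLinearGroup.transvection_coeff_zero]
  have hxq : x ∈ Cfsg.qd p := by
    apply Subgroup.subset_closure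
    rw [hx]
    refine ⟨?_, ?_, ?_⟩ <;>
      simp [Matrix.SpecialLinearGroup.transvection_coe, Matrix.add_apply, Matrix.one_apply,
        Matrix.single_apply]
  have hyq : y ∈ Cfsg.qd p := by
    apply Subgroup.subset_closure
    rw [hy]
    refine ⟨?_, ?_, ?_⟩ <;>
      simp [Matrix.SpecialLinearGroup.transvection_coe, Matrix.add_apply, Matrix.one_apply,
        Matrix.single_apply]
  have hxz : x * z = z * x := by
    rw [hx, hz]
    apply Subtype.ext
    ext i j
    fin_cases i <;> fin_cases j <;>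
      simp [Matrix.SpecialLinearGroup.transvection_coe, Matrix.mul_apply, Fin.sum_univ_three,
        Matrix.add_apply, Matrix.one_apply, Matrix.single_apply]
  have hyz : y * z = z * y := by
    rw [hy, hz]
    apply Subtype.ext
    ext i j
    fin_cases i <;> fin_cases j <;>
      simp [Matrix.SpecialLinearGroup.transvection_coe, Matrix.mul_apply, Fin.sum_univ_three,
        Matrix.add_apply, Matrix.one_apply, Matrix.single_apply]
  have hxy : x * y = z * y * x := by
    rw [hx, hy, hz]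
    apply Subtype.ext
    ext i j
    fin_cases i <;> fin_cases j <;>
      simp [Matrix.SpecialLinearGroup.transvection_coe, Matrix.mul_apply, Fin.sum_univ_three,
        Matrix.add_apply, Matrix.one_apply, Matrix.single_apply]
  have hne : x * y ≠ y * x := by
    intro heq
    have h1 := congrArg (fun M : Matrix.SpecialLinearGroup (Fin 3) (ZMod p) =>
      (M : Matrix (Fin 3) (Fin 3) (ZMod p)) 0 2) heq
    rw [hx, hy] at h1
    simp [Matrix.SpecialLinearGroup.transvection_coe, Matrix.mul_apply, Fin.sum_univ_three,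
        Matrix.add_apply, Matrix.one_apply, Matrix.single_apply] at h1
  have hK : IsPGroup p ↥(Subgroup.zpowers y ⊔ Subgroup.zpowers z) :=
    IsPGroup.to_sup_of_normal_left' (isPGroup_zpowers_of_pow_eq_one hyp)
      (isPGroup_zpowers_of_pow_eq_one hzp) (zpowers_le_normalizer_zpowers_of_comm hyz)
  have hxK : Subgroup.zpowers x ≤
      Subgroup.normalizer ((Subgroup.zpowers y ⊔ Subgroup.zpowers z : Subgroup _) : Set _) := by
    rw [Subgroup.zpowers_le]
    apply mem_normalizer_of_forall_conj_mem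
    have hle : Subgroup.zpowers y ⊔ Subgroup.zpowers z ≤
        (Subgroup.zpowers y ⊔ Subgroup.zpowers z).comap (MulAut.conj x).toMonoidHom := by
      apply sup_le
      · rw [Subgroup.zpowers_le, Subgroup.mem_comap]
        show x * y * x⁻¹ ∈ _
        rw [hxy, mul_inv_cancel_right]
        exact Subgroup.mul_mem _ ((le_sup_right : Subgroup.zpowers z ≤ _) (Subgroup.mem_zpowers z))
          ((le_sup_left : Subgroup.zpowers y ≤ _) (Subgroup.mem_zpowers y))
      · rw [Subgroup.zpowers_le, Subgroup.mem_comap]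
        show x * z * x⁻¹ ∈ _
        rw [hxz, mul_inv_cancel_right]
        exact (le_sup_right : Subgroup.zpowers z ≤ _) (Subgroup.mem_zpowers z)
    intro a ha
    exact hle ha
  have hU : IsPGroup p ↥(Subgroup.zpowers x ⊔ (Subgroup.zpowers y ⊔ Subgroup.zpowers z)) :=
    IsPGroup.to_sup_of_normal_right' (isPGroup_zpowers_of_pow_eq_one hxp) hK hxK
  have hS : IsPGroup p ↥((Subgroup.zpowers x ⊔ (Subgroup.zpowers y ⊔ Subgroup.zpowers z)).subgroupOf
      (Cfsg.qd p)) := hU.comap_subtype
  have hcomm := h _ hS ⟨x, hxq⟩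
    (Subgroup.mem_subgroupOf.mpr ((le_sup_left : Subgroup.zpowers x ≤ _) (Subgroup.mem_zpowers x)))
    ⟨y, hyq⟩
    (Subgroup.mem_subgroupOf.mpr ((le_sup_right : Subgroup.zpowers y ⊔ Subgroup.zpowers z ≤ _)
      ((le_sup_left : Subgroup.zpowers y ≤ _) (Subgroup.mem_zpowers y))))
  exact hne (congrArg Subtype.val hcomm)

end Cfsg.Agent.Lib.Helper3
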