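import Mathlib

set_option autoImplicit false

namespace Cfsg.Agent.Lib.Helper3

universe u

open Module

theorem alt_even_aux {F : Type*} [Field F] : ∀ (d : ℕ) (V : Type u) [AddCommGroup V] [Module F V]
    [FiniteDimensional F V] (B : LinearMap.BilinForm F V), Module.finrank F V = d → B.IsAlt →
    B.Nondegenerate → Even d := by
  intro d
  induction d using Nat.strong_induction_on with
  | _ d ih =>
    intro V _ _ _ B hd halt hnd
    rcases Nat.eq_zero_or_pos d with h0 | hpos
    · rw [h0]
      exact Even.zero
    · have hnt : Nontrivial V := Module.finrank_pos_iff.mp (hd ▸ hpos)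
      obtain ⟨u, hu⟩ := exists_ne (0 : V)
      have hex : ∃ v, B u v ≠ 0 := by
        by_contra hcon
        push Not at hcon
        exact hu (hnd.1 u hcon)
      obtain ⟨v, huv⟩ := hex
      have hvu : B v u ≠ 0 := fun h => huv ((halt.eq_iff).mp h)
      obtain ⟨W, hW⟩ : ∃ W, W = Submodule.span F ({u, v} : Set V) := ⟨_, rfl⟩
      have huW : u ∈ W := by
        rw [hW]
        exact Submodule.subset_span (Set.mem_insert _ _)
      have hvW : v ∈ W := by
        rw [hW]
        exact Submodule.subset_span (Set.mem_insert_of_mem _ rfl)
      have hrefl : B.IsRefl := halt.isRefl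
      have key : ∀ a b : F, (∀ n ∈ W, B n (a • u + b • v) = 0) → a = 0 ∧ b = 0 := by
        intro a b h
        have h1 := h u huW
        have h2 := h v hvW
        simp only [map_add, map_smul, smul_eq_mul, halt u, halt v, mul_zero, zero_add,
          add_zero] at h1 h2
        constructor
        · rcases mul_eq_zero.mp h2 with h3 | h3
          · exact h3
          · exact absurd h3 hvu
        · rcases mul_eq_zero.mp h1 with h3 | h3
          · exact h3
          · exact absurd h3 huv
      have hdisj : Disjoint W (B.orthogonal W) := by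
        rw [Submodule.disjoint_def]
        intro x hxW hxO
        rw [hW] at hxW
        obtain ⟨a, b, rfl⟩ := Submodule.mem_span_pair.mp hxW
        obtain ⟨ha, hb⟩ := key a b hxO
        rw [ha, hb, zero_smul, zero_smul, add_zero]
      have hW'nd : (B.restrict (B.orthogonal W)).Nondegenerate := by
        apply LinearMap.BilinForm.nondegenerate_restrict_of_disjoint_orthogonal B hrefl
        rw [LinearMap.BilinForm.orthogonal_orthogonal hnd hrefl]
        exact hdisj.symm
      have hW'alt : (B.restrict (B.orthogonal W)).IsAlt := fun x => halt (x : V)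
      have hfW : Module.finrank F W = 2 := by
        have hli : LinearIndependent F ![u, v] := by
          rw [LinearIndependent.pair_iff]
          intro s t hst
          apply key s t
          intro n _
          rw [hst, map_zero]
        have h5 := finrank_span_eq_card hli
        rw [Matrix.range_cons_cons_empty, Fintype.card_fin] at h5
        rw [hW]
        exact h5
      have hfW' : Module.finrank F (B.orthogonal W) = d - 2 := by
        rw [LinearMap.BilinForm.finrank_orthogonal hnd, hd, hfW]
      have h2d : 2 ≤ d := by
        rw [← hd, ← hfW]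
        exact Submodule.finrank_le W
      obtain ⟨k, hk⟩ := ih (d - 2) (by omega) (B.orthogonal W) (B.restrict (B.orthogonal W))
        hfW' hW'alt hW'nd
      exact ⟨k + 1, by omega⟩

/-- A nondegenerate alternating form lives on an even-dimensional space. -/
theorem alt_even {F : Type*} [Field F] {V : Type u} [AddCommGroup V] [Module F V]
    [FiniteDimensional F V] (B : LinearMap.BilinForm F V) (halt : B.IsAlt)
    (hnd : B.Nondegenerate) : Even (Module.finrank F V) :=
  alt_even_aux _ V B rfl halt hnd

/-- A matrix whose bilinear form is alternating has even rank. -/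
theorem alt_matrix_even_rank {F : Type*} [Field F] {ι : Type*} [Fintype ι] [DecidableEq ι]
    (C : Matrix ι ι F) (halt : ∀ x : ι → F, x ⬝ᵥ C.mulVec x = 0) : Even C.rank := by
  obtain ⟨B, hB⟩ : ∃ B : LinearMap.BilinForm F (ι → F), B = Matrix.toBilin' C := ⟨_, rfl⟩
  have hBapp : ∀ x y : ι → F, B x y = x ⬝ᵥ C.mulVec y := by
    intro x y
    rw [hB, Matrix.toBilin'_apply']
  have hBalt : B.IsAlt := fun x => by rw [hBapp]; exact halt x
  obtain ⟨K, hK⟩ : ∃ K, K = LinearMap.ker C.mulVecLin := ⟨_, rfl⟩
  obtain ⟨S, hS⟩ := Submodule.exists_isCompl K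
  have hSalt : (B.restrict S).IsAlt := fun x => hBalt (x : ι → F)
  have hSnd : (B.restrict S).Nondegenerate := by
    refine (LinearMap.IsRefl.nondegenerate_iff_separatingLeft hSalt.isRefl).mpr ?_
    intro s hs
    have h1 : ∀ y : ι → F, B (s : ι → F) y = 0 := by
      intro y
      have hy : y ∈ K ⊔ S := by
        rw [hS.sup_eq_top]
        exact Submodule.mem_top
      obtain ⟨k, hk, t, ht, rfl⟩ := Submodule.mem_sup.mp hy
      rw [map_add]
      have e1 : B (s : ι → F) k = 0 := by
        rw [hBapp]
        have hk' : C.mulVec k = 0 := by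
          rw [hK] at hk
          exact LinearMap.mem_ker.mp hk
        rw [hk', dotProduct_zero]
      have e2 : B (s : ι → F) t = 0 := hs ⟨t, ht⟩
      rw [e1, e2, add_zero]
    have h2 : ∀ y : ι → F, B y (s : ι → F) = 0 := fun y => (hBalt.eq_iff).mp (h1 y)
    have h3 : C.mulVec (s : ι → F) = 0 := by
      funext i
      have h4 := h2 (Pi.single i 1)
      rw [hBapp, single_one_dotProduct] at h4
      exact h4
    have h5 : (s : ι → F) ∈ K ⊓ S := by
      refine ⟨?_, s.2⟩
      rw [hK]
      exact LinearMap.mem_ker.mpr h3
    rw [hS.inf_eq_bot] at h5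
    exact Subtype.ext ((Submodule.mem_bot F).mp h5)
  have hev := alt_even (B.restrict S) hSalt hSnd
  have hdim : Module.finrank F S = C.rank := by
    have e1 := Submodule.finrank_add_eq_of_isCompl hS
    have e2 := LinearMap.finrank_range_add_finrank_ker C.mulVecLin
    rw [← hK] at e2
    have e3 : C.rank = Module.finrank F (LinearMap.range C.mulVecLin) := rfl
    omega
  rw [← hdim]
  exact hev

end Cfsg.Agent.Lib.Helper3
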