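import Mathlib

set_option autoImplicit false

namespace Cfsg.Agent.Lib.Helper3

/-- An involution `z` whose centralizer meets the normal subgroup `N` trivially inverts `N`. -/
theorem fpf_involution_inverts {H : Type*} [Group H] [Finite H] (z : H) (hz : z * z = 1)
    (N : Subgroup H) [hNn : N.Normal] (hN : N ⊓ Subgroup.centralizer ({z} : Set H) = ⊥) :
    ∀ n ∈ N, z * n * z⁻¹ = n⁻¹ := by
  have hzinv : z⁻¹ = z := inv_eq_of_mul_eq_one_right hz
  let f : N → N := fun n => ⟨(n : H)⁻¹ * (z * n * z⁻¹), N.mul_mem (N.inv_mem n.2) (hNn.conj_mem _ n.2 z)⟩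
  have hinj : Function.Injective f := by
    intro n m hnm
    have h1 : (n : H)⁻¹ * (z * n * z⁻¹) = (m : H)⁻¹ * (z * m * z⁻¹) := congrArg Subtype.val hnm
    have h2 : (m : H) * (n : H)⁻¹ ∈ N ⊓ Subgroup.centralizer ({z} : Set H) := by
      refine Subgroup.mem_inf.mpr ⟨N.mul_mem m.2 (N.inv_mem n.2), ?_⟩
      rw [Subgroup.mem_centralizer_singleton_iff]
      have h3 : (m : H) * ((n : H)⁻¹ * (z * n * z⁻¹)) = z * m * z⁻¹ := by
        rw [h1]; group
      calc (m : H) * (n : H)⁻¹ * z = (m : H) * ((n : H)⁻¹ * (z * n * z⁻¹)) * z * (n : H)⁻¹ := by group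
        _ = z * m * z⁻¹ * z * (n : H)⁻¹ := by rw [h3]
        _ = z * (m * (n : H)⁻¹) := by group
    rw [hN, Subgroup.mem_bot] at h2
    have h4 : (m : H) = n := by
      have := mul_inv_eq_one.mp h2
      exact this
    exact Subtype.ext h4.symm
  have hsurj : Function.Surjective f := Finite.injective_iff_surjective.mp hinj
  intro x hx
  obtain ⟨n, hn⟩ := hsurj ⟨x, hx⟩
  have hx' : x = (n : H)⁻¹ * (z * n * z⁻¹) := (congrArg Subtype.val hn).symm
  rw [hx', hzinv]
  have e1 : z * ((n : H)⁻¹ * (z * ↑n * z)) * z = z * (n : H)⁻¹ * z * n * (z * z) := by group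
  have e2 : ((n : H)⁻¹ * (z * ↑n * z))⁻¹ = z⁻¹ * (n : H)⁻¹ * z⁻¹ * n := by group
  rw [e1, e2, hz, hzinv, mul_one]

/-- A conjugate of such a `z` also inverts `N`. -/
theorem fpf_conj_inverts {H : Type*} [Group H] [Finite H] (z : H) (hz : z * z = 1)
    (N : Subgroup H) [hNn : N.Normal] (hN : N ⊓ Subgroup.centralizer ({z} : Set H) = ⊥)
    (e : H) (he : IsConj z e) : ∀ n ∈ N, e * n * e⁻¹ = n⁻¹ := by
  obtain ⟨c, hc⟩ := isConj_iff.mp he
  intro n hn
  have h1 := fpf_involution_inverts z hz N hN (c⁻¹ * n * c) (by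
    have := hNn.conj_mem n hn c⁻¹
    simpa using this)
  rw [← hc]
  calc c * z * c⁻¹ * n * (c * z * c⁻¹)⁻¹ = c * (z * (c⁻¹ * n * c) * z⁻¹) * c⁻¹ := by group
    _ = c * (c⁻¹ * n * c)⁻¹ * c⁻¹ := by rw [h1]
    _ = n⁻¹ := by group

theorem klein_exists_other {H : Type*} [Group H] (E : Subgroup H) (hE : IsKleinFour ↥E) (z : H) :
    ∃ b ∈ E, b ≠ 1 ∧ b ≠ z := by
  by_contra hcon
  push Not at hcon
  have hsub : (E : Set H) ⊆ {1, z} := by
    intro b hb
    by_cases h1 : b = 1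
    · left; exact h1
    · right; exact hcon b hb h1
  have hcard : Nat.card E = 4 := hE.card_four
  have h2 : Nat.card E = (E : Set H).ncard := Nat.card_coe_set_eq (E : Set H)
  have h3 : (E : Set H).ncard ≤ ({1, z} : Set H).ncard := Set.ncard_le_ncard hsub (Set.toFinite _)
  have h4 : ({1, z} : Set H).ncard ≤ 2 := by
    refine (Set.ncard_insert_le 1 {z}).trans ?_
    rw [Set.ncard_singleton]
  omega

/-- The main lemma: under the hypotheses, a normal subgroup meeting `C(z)` trivially is trivial. -/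
theorem fpf_klein_normal_eq_bot {H : Type*} [Group H] [Finite H] (z : H) (hz : orderOf z = 2)
    (N : Subgroup H) [hNn : N.Normal] (hN : N ⊓ Subgroup.centralizer ({z} : Set H) = ⊥)
    (E : Subgroup H) (hE : IsKleinFour ↥E) (hzE : z ∈ E) (hc : ∀ e ∈ E, e ≠ 1 → IsConj z e) :
    N = ⊥ := by
  have hz2 : z * z = 1 := by
    have := pow_orderOf_eq_one z
    rw [hz, pow_two] at this
    exact this
  have hz1 : z ≠ 1 := by
    intro h
    rw [h, orderOf_one] at hz
    omega
  have hzinv : z⁻¹ = z := inv_eq_of_mul_eq_one_right hz2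
  obtain ⟨b, hbE, hb1, hbz⟩ := klein_exists_other E hE z
  have hzb : z * b ≠ 1 := by
    intro h
    apply hbz
    have : b = z⁻¹ := (inv_eq_of_mul_eq_one_right h).symm
    rw [this, hzinv]
  have iz := fpf_conj_inverts z hz2 N hN z (hc z hzE hz1)
  have ib := fpf_conj_inverts z hz2 N hN b (hc b hbE hb1)
  have izb := fpf_conj_inverts z hz2 N hN (z * b) (hc (z * b) (E.mul_mem hzE hbE) hzb)
  rw [eq_bot_iff]
  intro n hn
  rw [Subgroup.mem_bot]
  have h1 : z * b * n * (z * b)⁻¹ = n := by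
    calc z * b * n * (z * b)⁻¹ = z * (b * n * b⁻¹) * z⁻¹ := by group
      _ = z * n⁻¹ * z⁻¹ := by rw [ib n hn]
      _ = (n⁻¹)⁻¹ := iz n⁻¹ (N.inv_mem hn)
      _ = n := inv_inv n
  have h2 : n = n⁻¹ := by rw [← izb n hn]; exact h1.symm
  have h3 : n ∈ N ⊓ Subgroup.centralizer ({z} : Set H) := by
    refine Subgroup.mem_inf.mpr ⟨hn, ?_⟩
    rw [Subgroup.mem_centralizer_singleton_iff]
    have := iz n hn
    rw [← h2] at this
    calc n * z = z * n * z⁻¹ * z := by rw [this]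
      _ = z * n := by group
  rw [hN, Subgroup.mem_bot] at h3
  exact h3

end Cfsg.Agent.Lib.Helper3
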