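import Mathlib

set_option autoImplicit false

namespace Cfsg.Agent.Lib.Helper3

/-- `Y` has a normal subgroup of index `p`. -/
def HasIndexP (p : ℕ) (Y : Type*) [Group Y] : Prop :=
  ∃ N : Subgroup Y, N.Normal ∧ N.index = p

/-- Some nontrivial Sylow `p`-subgroup `T` of `Y` has `N(T)/C(T)` a `p`-group. -/
def AutPCond (p : ℕ) (Y : Type*) [Group Y] : Prop :=
  ∃ T : Subgroup Y, IsPGroup p T ∧ ¬ p ∣ T.index ∧ T ≠ ⊥ ∧
    ∀ g ∈ Subgroup.normalizer (T : Set Y), (orderOf g).Coprime p →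
      g ∈ Subgroup.centralizer (T : Set Y)

theorem hasIndexP_of_surjective {Y Y' : Type*} [Group Y] [Group Y'] {p : ℕ} (f : Y →* Y')
    (hf : Function.Surjective f) (h : HasIndexP p Y') : HasIndexP p Y := by
  obtain ⟨N, hN, hidx⟩ := h
  exact ⟨N.comap f, hN.comap f, by rw [Subgroup.index_comap_of_surjective N hf, hidx]⟩

theorem hasIndexP_of_mulEquiv {Y Y' : Type*} [Group Y] [Group Y'] {p : ℕ} (e : Y ≃* Y')
    (h : HasIndexP p Y') : HasIndexP p Y :=
  hasIndexP_of_surjective e.toMonoidHom e.surjective h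

theorem autPCond_of_mulEquiv {Y Y' : Type*} [Group Y] [Group Y'] {p : ℕ} (e : Y ≃* Y')
    (h : AutPCond p Y) : AutPCond p Y' := by
  obtain ⟨T, hT, hidx, hne, hN⟩ := h
  refine ⟨T.map e.toMonoidHom, hT.map _, ?_, ?_, ?_⟩
  · have := Subgroup.index_map_equiv (H := T) e
    rw [show (T.map e.toMonoidHom).index = T.index from this]; exact hidx
  · intro h0
    exact hne ((Subgroup.map_eq_bot_iff_of_injective T e.injective).mp h0)
  · intro g' hg' hcop
    have hg : e.symm g' ∈ Subgroup.normalizer (T : Set Y) := by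
      rw [Subgroup.mem_normalizer_iff] at hg' ⊢
      intro t
      have h1 := hg' (e t)
      constructor
      · intro ht
        have h2 := h1.mp (Subgroup.mem_map_of_mem _ ht)
        obtain ⟨s, hs, hs2⟩ := h2
        have e1 : e.symm g' * t * (e.symm g')⁻¹ = s := by
          apply e.injective
          rw [map_mul, map_mul, map_inv, e.apply_symm_apply]
          exact hs2.symm
        rw [e1]; exact hs
      · intro ht
        have h2 : g' * e t * g'⁻¹ ∈ T.map e.toMonoidHom := by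
          refine ⟨_, ht, ?_⟩
          show e (e.symm g' * t * (e.symm g')⁻¹) = g' * e t * g'⁻¹
          rw [map_mul, map_mul, map_inv, e.apply_symm_apply]
        obtain ⟨s, hs, hs2⟩ := h1.mpr h2
        have : s = t := e.injective hs2
        rw [← this]; exact hs
    have hcop' : (orderOf (e.symm g')).Coprime p := by
      rw [MulEquiv.orderOf_eq]; exact hcop
    have hc := hN _ hg hcop'
    rw [Subgroup.mem_centralizer_iff] at hc ⊢
    rintro _ ⟨t, ht, rfl⟩
    have h3 := hc t ht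
    have h4 := congrArg e h3
    rw [map_mul, map_mul, e.apply_symm_apply] at h4
    exact h4

theorem hasIndexP_of_abelian {A : Type*} [CommGroup A] [Finite A] {p : ℕ} [Fact p.Prime]
    (hdvd : p ∣ Nat.card A) : HasIndexP p A := by
  have hp := (Fact.out : p.Prime)
  obtain ⟨a, m, hm, hcard⟩ :=
    Nat.exists_eq_pow_mul_and_not_dvd (Nat.card_pos (α := A)).ne' p hp.ne_one
  obtain ⟨φ, hφ⟩ : ∃ φ : A →* A, ∀ x, φ x = x ^ m := ⟨powMonoidHom m, fun x => rfl⟩
  have hI : IsPGroup p ↥φ.range := by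
    rintro ⟨_, ⟨x, rfl⟩⟩
    refine ⟨a, Subtype.ext ?_⟩
    show (φ x) ^ p ^ a = 1
    rw [hφ, ← pow_mul, mul_comm, ← hcard]; exact pow_card_eq_one'
  obtain ⟨x, hx⟩ := exists_prime_orderOf_dvd_card' p hdvd
  have hxm : φ x ≠ 1 := by
    intro h
    rw [hφ] at h
    have h1 : orderOf x ∣ m := orderOf_dvd_of_pow_eq_one h
    rw [hx] at h1; exact hm h1
  obtain ⟨b, hb⟩ := IsPGroup.iff_card.mp hI
  have hb0 : b ≠ 0 := by
    intro h0
    rw [h0, pow_zero] at hb
    haveI : Subsingleton ↥φ.range := (Nat.card_eq_one_iff_unique.mp hb).1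
    have h1 := Subsingleton.elim (⟨φ x, ⟨x, rfl⟩⟩ : ↥φ.range) 1
    exact hxm (congrArg Subtype.val h1)
  obtain ⟨I₀, hI₀⟩ := Sylow.exists_subgroup_card_pow_prime p
    (show p ^ (b - 1) ∣ Nat.card ↥φ.range by rw [hb]; exact pow_dvd_pow p (Nat.sub_le b 1))
  have hidx : I₀.index = p := by
    have h1 := Subgroup.card_mul_index I₀
    rw [hI₀, hb] at h1
    have hpb : p ^ b = p ^ (b - 1) * p := by
      rw [← pow_succ]; congr 1; omega
    rw [hpb] at h1
    exact Nat.eq_of_mul_eq_mul_left (pow_pos hp.pos _) h1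
  exact hasIndexP_of_surjective φ.rangeRestrict φ.rangeRestrict_surjective
    ⟨I₀, inferInstance, hidx⟩

theorem hasIndexP_of_dvd_index_commutator {Y : Type*} [Group Y] [Finite Y] {p : ℕ}
    [Fact p.Prime] (hdvd : p ∣ (commutator Y).index) : HasIndexP p Y := by
  have h1 : HasIndexP p (Abelianization Y) := by
    apply hasIndexP_of_abelian
    have : Nat.card (Abelianization Y) = (commutator Y).index := rfl
    rw [this]; exact hdvd
  exact hasIndexP_of_surjective Abelianization.of (QuotientGroup.mk_surjective) h1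

theorem hasIndexP_of_pgroup_quotient {Y : Type*} [Group Y] [Finite Y] {p : ℕ}
    [Fact p.Prime] (K : Subgroup Y) [K.Normal] (hK : K ≠ ⊤) (hq : IsPGroup p (Y ⧸ K)) :
    HasIndexP p Y := by
  haveI : Nontrivial (Y ⧸ K) := QuotientGroup.nontrivial_iff.mpr hK
  haveI : Group.IsNilpotent (Y ⧸ K) := hq.isNilpotent
  have hlt : commutator (Y ⧸ K) < ⊤ := Group.IsSolvable.commutator_lt_top_of_nontrivial (Y ⧸ K)
  have hidx1 : (commutator (Y ⧸ K)).index ≠ 1 := fun h =>
    (ne_of_lt hlt) (Subgroup.index_eq_one.mp h)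
  obtain ⟨k, hk⟩ := IsPGroup.iff_card.mp hq
  have hdvd : (commutator (Y ⧸ K)).index ∣ p ^ k := by
    rw [← hk]; exact Subgroup.index_dvd_card _
  obtain ⟨j, -, hj⟩ := (Nat.dvd_prime_pow (Fact.out : p.Prime)).mp hdvd
  have hj0 : j ≠ 0 := by
    intro h0; rw [h0, pow_zero] at hj; exact hidx1 hj
  have hp : p ∣ (commutator (Y ⧸ K)).index := by
    rw [hj]; exact dvd_pow_self p hj0
  exact hasIndexP_of_surjective (QuotientGroup.mk' K) (QuotientGroup.mk'_surjective K)
    (hasIndexP_of_dvd_index_commutator hp)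

/-- Lifting elements of order prime to `p` from a quotient. -/
theorem exists_pprime_lift {Y : Type*} [Group Y] [Finite Y] {p : ℕ} [Fact p.Prime]
    (Z : Subgroup Y) [Z.Normal] (ybar : Y ⧸ Z) (hy : (orderOf ybar).Coprime p) :
    ∃ y : Y, (y : Y ⧸ Z) = ybar ∧ (orderOf y).Coprime p := by
  have hp := (Fact.out : p.Prime)
  obtain ⟨y₀, rfl⟩ := QuotientGroup.mk_surjective ybar
  obtain ⟨a, m, hm, hord⟩ :=
    Nat.exists_eq_pow_mul_and_not_dvd (orderOf_pos y₀).ne' p hp.ne_one
  have hmcop : m.Coprime p := ((Nat.Prime.coprime_iff_not_dvd hp).mpr hm).symm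
  by_cases h1 : orderOf (y₀ : Y ⧸ Z) = 1
  · refine ⟨1, ?_, by rw [orderOf_one]; exact Nat.coprime_one_left p⟩
    rw [orderOf_eq_one_iff] at h1
    rw [h1]; rfl
  · have hn1 : 1 < orderOf (y₀ : Y ⧸ Z) := by
      have := orderOf_pos (y₀ : Y ⧸ Z)
      omega
    have hcop : (p ^ a).Coprime (orderOf (y₀ : Y ⧸ Z)) := Nat.Coprime.pow_left a hy.symm
    obtain ⟨j, -, hj⟩ := Nat.exists_mul_mod_eq_one_of_coprime hcop hn1
    refine ⟨y₀ ^ (p ^ a * j), ?_, ?_⟩
    · rw [QuotientGroup.mk_pow]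
      conv_rhs => rw [← pow_one (y₀ : Y ⧸ Z)]
      rw [pow_eq_pow_iff_modEq, Nat.ModEq, hj, Nat.mod_eq_of_lt hn1]
    · have h2 : (y₀ ^ (p ^ a * j)) ^ m = 1 := by
        rw [← pow_mul, mul_right_comm, ← hord, pow_mul, pow_orderOf_eq_one, one_pow]
      exact Nat.Coprime.coprime_dvd_left (orderOf_dvd_of_pow_eq_one h2) hmcop

end Cfsg.Agent.Lib.Helper3
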