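import Mathlib
import Cfsg.Prelude.Def_ConjugacyFunctors

set_option autoImplicit false

namespace Cfsg.Agent.Lib.Helper3

open Cfsg

theorem kUpperStarFamily_anti {P : Type*} [Group P] {Q Q' : Subgroup P} (h : Q ≤ Q') :
    kUpperStarFamily Q' ⊆ kUpperStarFamily Q := by
  intro B hB
  exact ⟨hB.1, le_trans (Subgroup.commutator_mono le_rfl h) hB.2⟩

theorem kLowerStarFamily_anti {P : Type*} [Group P] {Q Q' : Subgroup P} (h : Q ≤ Q') :
    kLowerStarFamily Q' ⊆ kLowerStarFamily Q := by
  intro B hB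
  exact ⟨hB.1, le_trans h hB.2.1, fun A hA hAQ => hB.2.2 A hA (le_trans hAQ h)⟩

theorem kSeqOdd_succ (P : Type*) [Group P] (n : ℕ) :
    kSeqOdd P (n + 1) = sSup (kUpperStarFamily (sSup (kLowerStarFamily (kSeqOdd P n)))) := rfl

theorem kSeqOdd_zero (P : Type*) [Group P] : kSeqOdd P 0 = ⊤ := rfl

theorem kSeqOdd_succ_le (P : Type*) [Group P] (n : ℕ) : kSeqOdd P (n + 1) ≤ kSeqOdd P n := by
  induction n with
  | zero => rw [kSeqOdd_zero]; exact le_top
  | succ n ih =>
    rw [kSeqOdd_succ P (n + 1), kSeqOdd_succ P n]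
    exact sSup_le_sSup (kUpperStarFamily_anti (sSup_le_sSup (kLowerStarFamily_anti ih)))

theorem kSeqEven_le_succ (P : Type*) [Group P] (n : ℕ) : kSeqEven P n ≤ kSeqEven P (n + 1) := by
  unfold kSeqEven
  exact sSup_le_sSup (kLowerStarFamily_anti (kSeqOdd_succ_le P n))

theorem kSeqOdd_antitone (P : Type*) [Group P] : Antitone (kSeqOdd P) :=
  antitone_nat_of_succ_le (kSeqOdd_succ_le P)

theorem kSeqEven_monotone (P : Type*) [Group P] : Monotone (kSeqEven P) :=
  monotone_nat_of_le_succ (kSeqEven_le_succ P)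

theorem normal_abelian_inf_centralizer {P : Type*} [Group P] (A : Subgroup P)
    (hA : IsMulCommutative ↥A) : A ⊓ Subgroup.centralizer (A : Set P) = A := by
  apply inf_eq_left.mpr
  intro a ha
  rw [Subgroup.mem_centralizer_iff]
  intro b hb
  have := hA.is_comm.comm (⟨b, hb⟩ : A) ⟨a, ha⟩
  exact congrArg Subtype.val this

theorem normal_abelian_mem_classTwo {P : Type*} [Group P] (A : Subgroup P)
    (hA : IsMulCommutative ↥A) : A ∈ classTwoSubgroups P := by
  show ⁅A, A⁆ ≤ Subgroup.centralizer (A : Set P)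
  have h : ⁅A, A⁆ = ⊥ := by
    rw [Subgroup.commutator_eq_bot_iff_le_centralizer]
    have := normal_abelian_inf_centralizer A hA
    exact inf_eq_left.mp this
  rw [h]; exact bot_le

theorem normal_abelian_mem_lower {P : Type*} [Group P] (A : Subgroup P) [A.Normal]
    (hA : IsMulCommutative ↥A) (Q : Subgroup P) : A ∈ kLowerStarFamily Q := by
  refine ⟨normal_abelian_mem_classTwo A hA, ?_, ?_⟩
  · rw [Subgroup.normalizer_eq_top]; exact le_top
  · intro A' _ _ _ _ _
    rw [normal_abelian_inf_centralizer A hA]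
    exact Subgroup.commutator_le_left A A'

theorem normal_abelian_mem_upper {P : Type*} [Group P] (A : Subgroup P) [A.Normal]
    (hA : IsMulCommutative ↥A) (Q : Subgroup P) : A ∈ kUpperStarFamily Q := by
  refine ⟨normal_abelian_mem_classTwo A hA, ?_⟩
  rw [normal_abelian_inf_centralizer A hA]
  exact Subgroup.commutator_le_left A Q

theorem kSeq_eventually_const (P : Type*) [Group P] [Finite P] :
    ∃ n : ℕ, ∀ m : ℕ, n ≤ m → kSeqEven P m = kInfLower P ∧ kSeqOdd P m = kInfUpper P := by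
  obtain ⟨n₁, h₁⟩ := WellFoundedGT.monotone_chain_condition (α := Subgroup P)
    ⟨kSeqEven P, kSeqEven_monotone P⟩
  obtain ⟨n₂, h₂⟩ := WellFoundedGT.monotone_chain_condition (α := (Subgroup P)ᵒᵈ)
    ⟨fun n => OrderDual.toDual (kSeqOdd P n), fun a b hab => kSeqOdd_antitone P hab⟩
  have h₁' : ∀ m, n₁ ≤ m → kSeqEven P m = kSeqEven P n₁ := fun m hm => (h₁ m hm).symm
  have h₂' : ∀ m, n₂ ≤ m → kSeqOdd P m = kSeqOdd P n₂ := fun m hm =>
    (congrArg OrderDual.ofDual (h₂ m hm)).symm
  have e₁ : kInfLower P = kSeqEven P n₁ := by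
    apply le_antisymm
    · apply iSup_le
      intro k
      rcases le_total k n₁ with h | h
      · exact kSeqEven_monotone P h
      · exact (h₁' k h).le
    · exact le_iSup (kSeqEven P) n₁
  have e₂ : kInfUpper P = kSeqOdd P n₂ := by
    apply le_antisymm
    · exact iInf_le (kSeqOdd P) n₂
    · apply le_iInf
      intro k
      rcases le_total k n₂ with h | h
      · exact kSeqOdd_antitone P h
      · exact (h₂' k h).ge
  refine ⟨max n₁ n₂, fun m hm => ⟨?_, ?_⟩⟩
  · rw [e₁]; exact h₁' m (le_trans (le_max_left _ _) hm)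
  · rw [e₂]; exact h₂' m (le_trans (le_max_right _ _) hm)

end Cfsg.Agent.Lib.Helper3
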