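import Mathlib
import Cfsg.Prelude.Def_ConjugacyFunctors
import Cfsg.Agent.Lib.Helper3.KInf
import Cfsg.Agent.Lib.Helper3.SylowFusion
import Cfsg.Agent.Lib.Helper3.ConjFam
import Cfsg.Agent.Lib.Lead.Coprime

set_option autoImplicit false

namespace Cfsg.Agent.Lib.Helper3

open Cfsg
open scoped commutatorElement

/-- In a nilpotent group, if `C(B) ≰ B` and `Q` normalizes `B`, some `x ∈ C(B) ∖ B` has all
commutators with `Q` in `Z(B)`. -/
theorem exists_central_mod_zb {P : Type*} [Group P] [Group.IsNilpotent P] (B Q : Subgroup P)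
    (hQ : Q ≤ Subgroup.normalizer (B : Set P)) (hB : ¬ Subgroup.centralizer (B : Set P) ≤ B) :
    ∃ x ∈ Subgroup.centralizer (B : Set P), x ∉ B ∧
      ∀ q ∈ Q, x * q * x⁻¹ * q⁻¹ ∈ B ⊓ Subgroup.centralizer (B : Set P) := by
  classical
  obtain ⟨n, hn⟩ := Group.IsNilpotent.nilpotent P
  have hex : ∃ i, ¬ (Subgroup.centralizer (B : Set P) ⊓ Subgroup.upperCentralSeries P i ≤ B) :=
    ⟨n, by rw [hn, inf_top_eq]; exact hB⟩
  have hi := Nat.find_spec hex
  have hmin : ∀ j, j < Nat.find hex →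
      Subgroup.centralizer (B : Set P) ⊓ Subgroup.upperCentralSeries P j ≤ B :=
    fun j hj => not_not.mp (Nat.find_min hex hj)
  have hne : Nat.find hex ≠ 0 := by
    intro h0
    rw [h0, Subgroup.upperCentralSeries_zero, inf_bot_eq] at hi
    exact hi bot_le
  obtain ⟨j, hj⟩ := Nat.exists_eq_succ_of_ne_zero hne
  rw [hj] at hi
  have hlt := hmin j (by omega)
  obtain ⟨x, hx, hxB⟩ := SetLike.not_le_iff_exists.mp hi
  have hx' := Subgroup.mem_inf.mp hx
  refine ⟨x, hx'.1, hxB, fun q hq => ?_⟩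
  have h1 : x * q * x⁻¹ * q⁻¹ ∈ Subgroup.upperCentralSeries P j :=
    Subgroup.mem_upperCentralSeries_succ_iff.mp hx'.2 q
  have h2 : x * q * x⁻¹ * q⁻¹ ∈ Subgroup.centralizer (B : Set P) := by
    have hq' := normalizer_le_normalizer_centralizer (B : Set P) (hQ hq)
    have h3 := (Subgroup.mem_normalizer_iff.mp hq' x⁻¹).mp (inv_mem hx'.1)
    have e : x * q * x⁻¹ * q⁻¹ = x * (q * x⁻¹ * q⁻¹) := by group
    rw [e]; exact mul_mem hx'.1 h3
  exact Subgroup.mem_inf.mpr ⟨hlt (Subgroup.mem_inf.mpr ⟨h2, h1⟩), h2⟩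

theorem conj_eq_of_mem_centralizer' {P : Type*} [Group P] {B : Subgroup P} {z c : P}
    (hz : z ∈ Subgroup.centralizer (B : Set P)) (hc : c ∈ B) : z * c * z⁻¹ = c := by
  rw [← (Subgroup.mem_centralizer_iff.mp hz) c hc]; group

theorem cext_mem {P : Type*} [Group P] (B : Subgroup P) (x : P)
    (hx : x ∈ Subgroup.centralizer (B : Set P)) {g : P} (hg : g ∈ B ⊔ Subgroup.zpowers x) :
    ∃ b ∈ B, ∃ z ∈ Subgroup.zpowers x, g = b * z :=
  Cfsg.Agent.Lib.Lead.mem_sup_of_le_normalizer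
    ((Subgroup.zpowers_le.mpr hx).trans (Subgroup.centralizer_le_normalizer _)) hg

theorem cext_centralizer {P : Type*} [Group P] (B : Subgroup P) (x : P)
    (hx : x ∈ Subgroup.centralizer (B : Set P)) :
    B ⊓ Subgroup.centralizer (B : Set P) ≤
      Subgroup.centralizer ((B ⊔ Subgroup.zpowers x : Subgroup P) : Set P) := by
  intro c hc
  have hc' := Subgroup.mem_inf.mp hc
  have hle : B ⊔ Subgroup.zpowers x ≤ Subgroup.centralizer ({c} : Set P) := by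
    apply sup_le
    · intro b hb
      rw [Subgroup.mem_centralizer_iff]
      intro h hh
      rw [Set.mem_singleton_iff] at hh
      rw [hh]
      exact ((Subgroup.mem_centralizer_iff.mp hc'.2) b hb).symm
    · rw [Subgroup.zpowers_le, Subgroup.mem_centralizer_iff]
      intro h hh
      rw [Set.mem_singleton_iff] at hh
      rw [hh]
      exact (Subgroup.mem_centralizer_iff.mp hx) c hc'.1
  rw [Subgroup.mem_centralizer_iff]
  intro g hg
  exact ((Subgroup.mem_centralizer_iff.mp (hle hg)) c rfl).symm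

theorem cext_x_mem_centralizer {P : Type*} [Group P] (B : Subgroup P) (x : P)
    (hx : x ∈ Subgroup.centralizer (B : Set P)) :
    x ∈ Subgroup.centralizer ((B ⊔ Subgroup.zpowers x : Subgroup P) : Set P) := by
  have hle : B ⊔ Subgroup.zpowers x ≤ Subgroup.centralizer ({x} : Set P) := by
    apply sup_le
    · intro b hb
      rw [Subgroup.mem_centralizer_iff]
      intro h hh
      rw [Set.mem_singleton_iff] at hh
      rw [hh]
      exact ((Subgroup.mem_centralizer_iff.mp hx) b hb).symm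
    · rw [Subgroup.zpowers_le, Subgroup.mem_centralizer_iff]
      intro h hh
      rw [Set.mem_singleton_iff] at hh
      rw [hh]
  rw [Subgroup.mem_centralizer_iff]
  intro g hg
  exact ((Subgroup.mem_centralizer_iff.mp (hle hg)) x rfl).symm

theorem cext_classTwo {P : Type*} [Group P] (B : Subgroup P) (x : P)
    (hB : B ∈ classTwoSubgroups P) (hx : x ∈ Subgroup.centralizer (B : Set P)) :
    B ⊔ Subgroup.zpowers x ∈ classTwoSubgroups P := by
  show ⁅B ⊔ Subgroup.zpowers x, B ⊔ Subgroup.zpowers x⁆ ≤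
    Subgroup.centralizer ((B ⊔ Subgroup.zpowers x : Subgroup P) : Set P)
  rw [Subgroup.commutator_le]
  intro g₁ hg₁ g₂ hg₂
  obtain ⟨b₁, hb₁, z₁, hz₁, rfl⟩ := cext_mem B x hx hg₁
  obtain ⟨b₂, hb₂, z₂, hz₂, rfl⟩ := cext_mem B x hx hg₂
  have hzc : Subgroup.zpowers x ≤
      Subgroup.centralizer ((B ⊔ Subgroup.zpowers x : Subgroup P) : Set P) :=
    Subgroup.zpowers_le.mpr (cext_x_mem_centralizer B x hx)
  have h1 : z₁ * (b₂ * z₂) = (b₂ * z₂) * z₁ :=
    ((Subgroup.mem_centralizer_iff.mp (hzc hz₁)) _ hg₂).symm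
  have h2 : z₂ * b₁⁻¹ = b₁⁻¹ * z₂ :=
    ((Subgroup.mem_centralizer_iff.mp (hzc hz₂)) _
      (Subgroup.mem_sup_left (inv_mem hb₁))).symm
  have e : ⁅b₁ * z₁, b₂ * z₂⁆ = ⁅b₁, b₂⁆ := by
    calc ⁅b₁ * z₁, b₂ * z₂⁆ = b₁ * (z₁ * (b₂ * z₂)) * z₁⁻¹ * b₁⁻¹ * (b₂ * z₂)⁻¹ := by
          rw [commutatorElement_def]; group
      _ = b₁ * ((b₂ * z₂) * z₁) * z₁⁻¹ * b₁⁻¹ * (b₂ * z₂)⁻¹ := by rw [h1]
      _ = b₁ * b₂ * (z₂ * b₁⁻¹) * z₂⁻¹ * b₂⁻¹ := by group
      _ = b₁ * b₂ * (b₁⁻¹ * z₂) * z₂⁻¹ * b₂⁻¹ := by rw [h2]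
      _ = ⁅b₁, b₂⁆ := by rw [commutatorElement_def]; group
  rw [e]
  apply cext_centralizer B x hx
  refine Subgroup.mem_inf.mpr ⟨?_, hB (Subgroup.commutator_mem_commutator hb₁ hb₂)⟩
  rw [commutatorElement_def]
  exact B.mul_mem (B.mul_mem (B.mul_mem hb₁ hb₂) (B.inv_mem hb₁)) (B.inv_mem hb₂)

theorem cext_comm {P : Type*} [Group P] (B : Subgroup P) (x : P) (A : Subgroup P)
    (hx : x ∈ Subgroup.centralizer (B : Set P))
    (hBA : ⁅B, A⁆ ≤ B ⊓ Subgroup.centralizer (B : Set P))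
    (hxA : ∀ a ∈ A, x * a * x⁻¹ * a⁻¹ ∈ B ⊓ Subgroup.centralizer (B : Set P)) :
    ⁅B ⊔ Subgroup.zpowers x, A⁆ ≤ B ⊓ Subgroup.centralizer (B : Set P) := by
  obtain ⟨W, hW⟩ : ∃ W : Subgroup P, ∀ z, z ∈ W ↔ (z ∈ Subgroup.centralizer (B : Set P) ∧
      ∀ a ∈ A, z * a * z⁻¹ * a⁻¹ ∈ B ⊓ Subgroup.centralizer (B : Set P)) := by
    refine ⟨{ carrier := {z | z ∈ Subgroup.centralizer (B : Set P) ∧
        ∀ a ∈ A, z * a * z⁻¹ * a⁻¹ ∈ B ⊓ Subgroup.centralizer (B : Set P)}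
              one_mem' := ?_, mul_mem' := ?_, inv_mem' := ?_ }, fun z => Iff.rfl⟩
    · rintro z₁ z₂ ⟨hz₁, h₁⟩ ⟨hz₂, h₂⟩
      refine ⟨mul_mem hz₁ hz₂, fun a ha => ?_⟩
      have e : z₁ * z₂ * a * (z₁ * z₂)⁻¹ * a⁻¹ =
          (z₁ * (z₂ * a * z₂⁻¹ * a⁻¹) * z₁⁻¹) * (z₁ * a * z₁⁻¹ * a⁻¹) := by group
      rw [e, conj_eq_of_mem_centralizer' hz₁ (Subgroup.mem_inf.mp (h₂ a ha)).1]
      exact mul_mem (h₂ a ha) (h₁ a ha)
    · refine ⟨one_mem _, fun a _ => ?_⟩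
      have e : (1 : P) * a * 1⁻¹ * a⁻¹ = 1 := by group
      rw [e]; exact one_mem _
    · rintro z ⟨hz, h⟩
      refine ⟨inv_mem hz, fun a ha => ?_⟩
      have e : z⁻¹ * a * z⁻¹⁻¹ * a⁻¹ = z⁻¹ * (z * a * z⁻¹ * a⁻¹)⁻¹ * z⁻¹⁻¹ := by group
      rw [e, conj_eq_of_mem_centralizer' (inv_mem hz)
        (Subgroup.mem_inf.mp (inv_mem (h a ha))).1]
      exact inv_mem (h a ha)
  have hzW : Subgroup.zpowers x ≤ W := Subgroup.zpowers_le.mpr ((hW x).mpr ⟨hx, hxA⟩)
  rw [Subgroup.commutator_le]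
  intro g hg a ha
  obtain ⟨b, hb, z, hz, rfl⟩ := cext_mem B x hx hg
  have hz' := (hW z).mp (hzW hz)
  have hc := hz'.2 a ha
  have hc' := Subgroup.mem_inf.mp hc
  have hbc : b * (z * a * z⁻¹ * a⁻¹) = (z * a * z⁻¹ * a⁻¹) * b :=
    (Subgroup.mem_centralizer_iff.mp hc'.2) b hb
  have e : ⁅b * z, a⁆ = (z * a * z⁻¹ * a⁻¹) * ⁅b, a⁆ := by
    calc ⁅b * z, a⁆ = (b * (z * a * z⁻¹ * a⁻¹)) * a * b⁻¹ * a⁻¹ := by
          rw [commutatorElement_def]; group
      _ = ((z * a * z⁻¹ * a⁻¹) * b) * a * b⁻¹ * a⁻¹ := by rw [hbc]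
      _ = (z * a * z⁻¹ * a⁻¹) * ⁅b, a⁆ := by rw [commutatorElement_def]; group
  rw [e]
  exact mul_mem hc (hBA (Subgroup.commutator_mem_commutator hb ha))

theorem cext_mem_upper {P : Type*} [Group P] (B : Subgroup P) (x : P) (Q : Subgroup P)
    (hB : B ∈ kUpperStarFamily Q) (hx : x ∈ Subgroup.centralizer (B : Set P))
    (hxQ : ∀ q ∈ Q, x * q * x⁻¹ * q⁻¹ ∈ B ⊓ Subgroup.centralizer (B : Set P)) :
    B ⊔ Subgroup.zpowers x ∈ kUpperStarFamily Q :=
  ⟨cext_classTwo B x hB.1 hx, (cext_comm B x Q hx hB.2 hxQ).trans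
    (le_inf (inf_le_left.trans le_sup_left) (cext_centralizer B x hx))⟩

theorem cext_mem_lower {P : Type*} [Group P] [Finite P] (B : Subgroup P) (x : P)
    (Q : Subgroup P)
    (hB : B ∈ kLowerStarFamily Q) (hx : x ∈ Subgroup.centralizer (B : Set P))
    (hxQ : ∀ q ∈ Q, x * q * x⁻¹ * q⁻¹ ∈ B ⊓ Subgroup.centralizer (B : Set P)) :
    B ⊔ Subgroup.zpowers x ∈ kLowerStarFamily Q := by
  have hZ : B ⊓ Subgroup.centralizer (B : Set P) ≤ (B ⊔ Subgroup.zpowers x) ⊓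
      Subgroup.centralizer ((B ⊔ Subgroup.zpowers x : Subgroup P) : Set P) :=
    le_inf (inf_le_left.trans le_sup_left) (cext_centralizer B x hx)
  refine ⟨cext_classTwo B x hB.1 hx, ?_, ?_⟩
  · intro q hq
    apply mem_normalizer_of_forall_conj_mem
    have hle : B ⊔ Subgroup.zpowers x ≤
        (B ⊔ Subgroup.zpowers x).comap (MulAut.conj q).toMonoidHom := by
      apply sup_le
      · intro b hb
        show q * b * q⁻¹ ∈ B ⊔ Subgroup.zpowers x
        exact Subgroup.mem_sup_left ((Subgroup.mem_normalizer_iff.mp (hB.2.1 hq) b).mp hb)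
      · rw [Subgroup.zpowers_le]
        show q * x * q⁻¹ ∈ B ⊔ Subgroup.zpowers x
        have e : q * x * q⁻¹ = (x * q * x⁻¹ * q⁻¹)⁻¹ * x := by group
        rw [e]
        exact mul_mem (inv_mem (Subgroup.mem_sup_left (Subgroup.mem_inf.mp (hxQ q hq)).1))
          (Subgroup.mem_sup_right (Subgroup.mem_zpowers x))
    intro a ha
    exact hle ha
  · intro A hA hAQ hBsA h1 h2
    have hBA : ⁅B, A⁆ ≤ B ⊓ Subgroup.centralizer (B : Set P) := by
      apply hB.2.2 A hA hAQ (le_sup_left.trans hBsA)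
      · rw [eq_bot_iff, ← h1]; exact Subgroup.commutator_mono le_sup_left le_rfl
      · rw [eq_bot_iff, ← h2]
        exact Subgroup.commutator_mono (Subgroup.commutator_mono hZ le_rfl) le_rfl
    exact (cext_comm B x A hx hBA (fun a ha => hxQ a (hAQ ha))).trans hZ

/-- A maximal member of the class-two family, a lower-star family or an upper-star family of a
finite `p`-group contains its centralizer. -/
theorem centralizer_le_of_maximal {P : Type*} [Group P] [Finite P] {p : ℕ} [Fact p.Prime]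
    (hP : IsPGroup p P) (B : Subgroup P) (𝒦 : Set (Subgroup P))
    (h𝒦 : 𝒦 = classTwoSubgroups P ∨ (∃ Q, 𝒦 = kLowerStarFamily Q) ∨
      ∃ Q, 𝒦 = kUpperStarFamily Q)
    (hB : B ∈ 𝒦) (hmax : ∀ C ∈ 𝒦, B ≤ C → C = B) :
    Subgroup.centralizer (B : Set P) ≤ B := by
  haveI : Group.IsNilpotent P := hP.isNilpotent
  by_contra hcon
  rcases h𝒦 with rfl | ⟨Q, rfl⟩ | ⟨Q, rfl⟩
  · obtain ⟨x, hx, hxB, -⟩ := exists_central_mod_zb B ⊥ bot_le hcon
    have h := hmax _ (cext_classTwo B x hB hx) le_sup_left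
    have hmem : x ∈ B ⊔ Subgroup.zpowers x := Subgroup.mem_sup_right (Subgroup.mem_zpowers x)
    rw [h] at hmem
    exact hxB hmem
  · obtain ⟨x, hx, hxB, hxQ⟩ := exists_central_mod_zb B Q hB.2.1 hcon
    have h := hmax _ (cext_mem_lower B x Q hB hx hxQ) le_sup_left
    have hmem : x ∈ B ⊔ Subgroup.zpowers x := Subgroup.mem_sup_right (Subgroup.mem_zpowers x)
    rw [h] at hmem
    exact hxB hmem
  · have hQ : Q ≤ Subgroup.normalizer (B : Set P) := by
      intro q hq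
      apply mem_normalizer_of_forall_conj_mem
      intro b hb
      have h1 : ⁅b⁻¹, q⁆ ∈ B :=
        (Subgroup.mem_inf.mp (hB.2 (Subgroup.commutator_mem_commutator (inv_mem hb) hq))).1
      have e : q * b * q⁻¹ = b * ⁅b⁻¹, q⁆ := by rw [commutatorElement_def]; group
      rw [e]; exact mul_mem hb h1
    obtain ⟨x, hx, hxB, hxQ⟩ := exists_central_mod_zb B Q hQ hcon
    have h := hmax _ (cext_mem_upper B x Q hB hx hxQ) le_sup_left
    have hmem : x ∈ B ⊔ Subgroup.zpowers x := Subgroup.mem_sup_right (Subgroup.mem_zpowers x)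
    rw [h] at hmem
    exact hxB hmem

/-- The subgroup generated by a nonempty family of one of the three kinds contains its centralizer. -/
theorem centralizer_sSup_le {P : Type*} [Group P] [Finite P] {p : ℕ} [Fact p.Prime]
    (hP : IsPGroup p P) (𝒦 : Set (Subgroup P))
    (h𝒦 : 𝒦 = classTwoSubgroups P ∨ (∃ Q, 𝒦 = kLowerStarFamily Q) ∨
      ∃ Q, 𝒦 = kUpperStarFamily Q)
    (hne : 𝒦.Nonempty) :
    Subgroup.centralizer ((sSup 𝒦 : Subgroup P) : Set P) ≤ sSup 𝒦 := by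
  obtain ⟨B₀, hB₀⟩ := hne
  obtain ⟨B, -, hB⟩ := (Set.toFinite 𝒦).exists_le_maximal hB₀
  have h1 := centralizer_le_of_maximal hP B 𝒦 h𝒦 hB.prop
    (fun C hC hBC => le_antisymm (hB.le_of_ge hC hBC) hBC)
  exact (Subgroup.centralizer_le (SetLike.coe_subset_coe.mpr (le_sSup hB.prop))).trans
    (h1.trans (le_sSup hB.prop))

end Cfsg.Agent.Lib.Helper3
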