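import Mathlib
import Cfsg.Prelude.Def_ConjugacyFunctors
import Cfsg.Agent.Lib.Helper3.KInf

set_option autoImplicit false

namespace Cfsg.Agent.Lib.Helper3

open Cfsg

theorem le_normalizer_map_iff {H P : Type*} [Group H] [Group P] (f : H →* P)
    (hf : Function.Injective f) (R B : Subgroup H) :
    R.map f ≤ Subgroup.normalizer ((B.map f : Subgroup P) : Set P) ↔
      R ≤ Subgroup.normalizer (B : Set H) := by
  constructor
  · intro h r hr
    have h1 := h (Subgroup.mem_map_of_mem f hr)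
    rw [Subgroup.mem_normalizer_iff] at h1 ⊢
    intro b
    have h2 := h1 (f b)
    rw [Subgroup.mem_map_iff_mem hf, ← map_inv, ← map_mul, ← map_mul,
      Subgroup.mem_map_iff_mem hf] at h2
    exact h2
  · rintro h _ ⟨r, hr, rfl⟩
    have h1 := h hr
    rw [Subgroup.mem_normalizer_iff] at h1 ⊢
    intro y
    constructor
    · rintro ⟨b, hb, rfl⟩
      exact ⟨r * b * r⁻¹, (h1 b).mp hb, by simp⟩
    · rintro ⟨b, hb, hby⟩
      refine ⟨r⁻¹ * b * r, ?_, ?_⟩
      · apply (h1 (r⁻¹ * b * r)).mpr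
        have e : r * (r⁻¹ * b * r) * r⁻¹ = b := by group
        rw [e]; exact hb
      · rw [map_mul, map_mul, hby, map_inv]; group

theorem map_inf_centralizer' {H P : Type*} [Group H] [Group P] (f : H →* P)
    (hf : Function.Injective f) (B : Subgroup H) :
    (B ⊓ Subgroup.centralizer (B : Set H)).map f =
      B.map f ⊓ Subgroup.centralizer ((B.map f : Subgroup P) : Set P) := by
  ext y
  constructor
  · rintro ⟨b, hb, rfl⟩
    have hb' := Subgroup.mem_inf.mp hb
    refine Subgroup.mem_inf.mpr ⟨Subgroup.mem_map_of_mem f hb'.1, ?_⟩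
    rw [Subgroup.mem_centralizer_iff]
    rintro _ ⟨c, hc, rfl⟩
    rw [← map_mul, ← map_mul, (Subgroup.mem_centralizer_iff.mp hb'.2) c hc]
  · intro hy
    obtain ⟨⟨b, hb, rfl⟩, h2⟩ := Subgroup.mem_inf.mp hy
    refine ⟨b, Subgroup.mem_inf.mpr ⟨hb, ?_⟩, rfl⟩
    rw [Subgroup.mem_centralizer_iff]
    intro c hc
    apply hf
    rw [map_mul, map_mul]
    exact (Subgroup.mem_centralizer_iff.mp h2) (f c) (Subgroup.mem_map_of_mem f hc)

theorem classTwo_map_iff {H P : Type*} [Group H] [Group P] (f : H →* P)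
    (hf : Function.Injective f) (B : Subgroup H) :
    B.map f ∈ classTwoSubgroups P ↔ B ∈ classTwoSubgroups H := by
  show ⁅B.map f, B.map f⁆ ≤ Subgroup.centralizer ((B.map f : Subgroup P) : Set P) ↔
    ⁅B, B⁆ ≤ Subgroup.centralizer (B : Set H)
  rw [← Subgroup.commutator_eq_bot_iff_le_centralizer,
    ← Subgroup.commutator_eq_bot_iff_le_centralizer, ← Subgroup.map_commutator,
    ← Subgroup.map_commutator, Subgroup.map_eq_bot_iff_of_injective _ hf]

theorem upper_map_iff {H P : Type*} [Group H] [Group P] (f : H →* P)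
    (hf : Function.Injective f) (R B : Subgroup H) :
    B.map f ∈ kUpperStarFamily (R.map f) ↔ B ∈ kUpperStarFamily R := by
  show (B.map f ∈ classTwoSubgroups P ∧ ⁅B.map f, R.map f⁆ ≤
      B.map f ⊓ Subgroup.centralizer ((B.map f : Subgroup P) : Set P)) ↔
    (B ∈ classTwoSubgroups H ∧ ⁅B, R⁆ ≤ B ⊓ Subgroup.centralizer (B : Set H))
  rw [classTwo_map_iff f hf, ← Subgroup.map_commutator, ← map_inf_centralizer' f hf,
    Subgroup.map_le_map_iff_of_injective hf]

theorem lower_map_iff {H P : Type*} [Group H] [Group P] (f : H →* P)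
    (hf : Function.Injective f) (R B : Subgroup H) :
    B.map f ∈ kLowerStarFamily (R.map f) ↔ B ∈ kLowerStarFamily R := by
  have key : ∀ A : Subgroup H,
      ((A.map f ∈ classTwoSubgroups P) ↔ A ∈ classTwoSubgroups H) ∧
      (A.map f ≤ R.map f ↔ A ≤ R) ∧
      (B.map f ≤ Subgroup.normalizer ((A.map f : Subgroup P) : Set P) ↔
        B ≤ Subgroup.normalizer (A : Set H)) ∧
      (⁅B.map f, ⁅A.map f, A.map f⁆⁆ = ⊥ ↔ ⁅B, ⁅A, A⁆⁆ = ⊥) ∧
      (⁅⁅B.map f ⊓ Subgroup.centralizer ((B.map f : Subgroup P) : Set P), A.map f⁆, A.map f⁆ = ⊥ ↔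
        ⁅⁅B ⊓ Subgroup.centralizer (B : Set H), A⁆, A⁆ = ⊥) ∧
      (⁅B.map f, A.map f⁆ ≤ B.map f ⊓ Subgroup.centralizer ((B.map f : Subgroup P) : Set P) ↔
        ⁅B, A⁆ ≤ B ⊓ Subgroup.centralizer (B : Set H)) := by
    intro A
    refine ⟨classTwo_map_iff f hf A, Subgroup.map_le_map_iff_of_injective hf,
      le_normalizer_map_iff f hf B A, ?_, ?_, ?_⟩
    · rw [← Subgroup.map_commutator, ← Subgroup.map_commutator,
        Subgroup.map_eq_bot_iff_of_injective _ hf]
    · rw [← map_inf_centralizer' f hf, ← Subgroup.map_commutator, ← Subgroup.map_commutator,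
        Subgroup.map_eq_bot_iff_of_injective _ hf]
    · rw [← map_inf_centralizer' f hf, ← Subgroup.map_commutator,
        Subgroup.map_le_map_iff_of_injective hf]
  constructor
  · rintro ⟨h1, h2, h3⟩
    refine ⟨(classTwo_map_iff f hf B).mp h1, (le_normalizer_map_iff f hf R B).mp h2, ?_⟩
    intro A hA hAR hBA hc1 hc2
    obtain ⟨k1, k2, k3, k4, k5, k6⟩ := key A
    exact k6.mp (h3 (A.map f) (k1.mpr hA) (k2.mpr hAR) (k3.mpr hBA) (k4.mpr hc1) (k5.mpr hc2))
  · rintro ⟨h1, h2, h3⟩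
    refine ⟨(classTwo_map_iff f hf B).mpr h1, (le_normalizer_map_iff f hf R B).mpr h2, ?_⟩
    intro A hA hAR hBA hc1 hc2
    have hAeq : (A.comap f).map f = A :=
      Subgroup.map_comap_eq_self (hAR.trans (Subgroup.map_le_range f R))
    obtain ⟨k1, k2, k3, k4, k5, k6⟩ := key (A.comap f)
    rw [hAeq] at k1 k2 k3 k4 k5 k6
    exact k6.mpr (h3 (A.comap f) (k1.mp hA) (k2.mp hAR) (k3.mp hBA) (k4.mp hc1) (k5.mp hc2))

/-- Interlacing of the K-sequences of `P` and of a subgroup `Q` containing the later terms. -/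
theorem kSeq_interlace {P : Type*} [Group P] (Q : Subgroup P)
    (hQ : ∀ n : ℕ, kSeqEven P n ≤ Q ∧ kSeqOdd P (n + 1) ≤ Q) (n : ℕ) :
    (kSeqOdd P (n + 1) ≤ (kSeqOdd ↥Q n).map Q.subtype ∧
      (kSeqOdd ↥Q n).map Q.subtype ≤ kSeqOdd P n) ∧
    (kSeqEven P n ≤ (kSeqEven ↥Q n).map Q.subtype ∧
      (kSeqEven ↥Q n).map Q.subtype ≤ kSeqEven P (n + 1)) := by
  have hf : Function.Injective Q.subtype := Subgroup.subtype_injective Q
  have stepA : ∀ n, (kSeqOdd P (n + 1) ≤ (kSeqOdd ↥Q n).map Q.subtype ∧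
      (kSeqOdd ↥Q n).map Q.subtype ≤ kSeqOdd P n) →
      (kSeqEven P n ≤ (kSeqEven ↥Q n).map Q.subtype ∧
        (kSeqEven ↥Q n).map Q.subtype ≤ kSeqEven P (n + 1)) := by
    rintro n ⟨h1, h2⟩
    constructor
    · show sSup (kLowerStarFamily (kSeqOdd P n)) ≤ _
      apply sSup_le
      intro B hB
      have hBQ : B ≤ Q := (le_sSup hB).trans (hQ n).1
      have hBeq : (B.comap Q.subtype).map Q.subtype = B :=
        Subgroup.map_comap_eq_self (by rw [Subgroup.range_subtype]; exact hBQ)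
      have hB' : B.comap Q.subtype ∈ kLowerStarFamily (kSeqOdd ↥Q n) := by
        rw [← lower_map_iff Q.subtype hf, hBeq]
        exact kLowerStarFamily_anti h2 hB
      rw [← hBeq]
      exact Subgroup.map_mono (le_sSup hB')
    · rw [Subgroup.map_le_iff_le_comap]
      show sSup (kLowerStarFamily (kSeqOdd ↥Q n)) ≤ _
      apply sSup_le
      intro B' hB'
      rw [← Subgroup.map_le_iff_le_comap]
      have := (lower_map_iff Q.subtype hf _ B').mpr hB'
      exact le_sSup (kLowerStarFamily_anti h1 this)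
  have stepB : ∀ n, (kSeqEven P n ≤ (kSeqEven ↥Q n).map Q.subtype ∧
      (kSeqEven ↥Q n).map Q.subtype ≤ kSeqEven P (n + 1)) →
      (kSeqOdd P (n + 2) ≤ (kSeqOdd ↥Q (n + 1)).map Q.subtype ∧
        (kSeqOdd ↥Q (n + 1)).map Q.subtype ≤ kSeqOdd P (n + 1)) := by
    rintro n ⟨h1, h2⟩
    constructor
    · show sSup (kUpperStarFamily (kSeqEven P (n + 1))) ≤ _
      apply sSup_le
      intro B hB
      have hBQ : B ≤ Q := (le_sSup hB).trans (hQ (n + 1)).2
      have hBeq : (B.comap Q.subtype).map Q.subtype = B :=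
        Subgroup.map_comap_eq_self (by rw [Subgroup.range_subtype]; exact hBQ)
      have hB' : B.comap Q.subtype ∈ kUpperStarFamily (kSeqEven ↥Q n) := by
        rw [← upper_map_iff Q.subtype hf, hBeq]
        exact kUpperStarFamily_anti h2 hB
      rw [← hBeq]
      exact Subgroup.map_mono (le_sSup hB')
    · rw [Subgroup.map_le_iff_le_comap]
      show sSup (kUpperStarFamily (kSeqEven ↥Q n)) ≤ _
      apply sSup_le
      intro B' hB'
      rw [← Subgroup.map_le_iff_le_comap]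
      have := (upper_map_iff Q.subtype hf _ B').mpr hB'
      exact le_sSup (kUpperStarFamily_anti h1 this)
  have hodd : ∀ n, (kSeqOdd P (n + 1) ≤ (kSeqOdd ↥Q n).map Q.subtype ∧
      (kSeqOdd ↥Q n).map Q.subtype ≤ kSeqOdd P n) := by
    intro n
    induction n with
    | zero =>
      refine ⟨?_, ?_⟩
      · intro x hx
        exact ⟨⟨x, (hQ 0).2 hx⟩, Subgroup.mem_top _, rfl⟩
      · rw [kSeqOdd_zero]; exact le_top
    | succ n ih => exact stepB n (stepA n ih)
  exact ⟨hodd n, stepA n (hodd n)⟩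

theorem kInf_subgroup_eq {P : Type*} [Group P] [Finite P] (Q : Subgroup P)
    (hQ : ∀ n : ℕ, kSeqEven P n ≤ Q ∧ kSeqOdd P (n + 1) ≤ Q) :
    (kInfLower ↥Q).map Q.subtype = kInfLower P ∧
      (kInfUpper ↥Q).map Q.subtype = kInfUpper P := by
  obtain ⟨m₁, h₁⟩ := kSeq_eventually_const P
  obtain ⟨m₂, h₂⟩ := kSeq_eventually_const ↥Q
  obtain ⟨m, hm⟩ : ∃ m, m = max m₁ m₂ := ⟨_, rfl⟩
  have hm1 : m₁ ≤ m := by rw [hm]; exact le_max_left _ _
  have hm2 : m₂ ≤ m := by rw [hm]; exact le_max_right _ _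
  have hi := kSeq_interlace Q hQ m
  have a1 := h₁ m hm1
  have a2 := h₁ (m + 1) (by omega)
  have b := h₂ m hm2
  constructor
  · rw [← b.1]
    apply le_antisymm
    · rw [← a2.1]; exact hi.2.2
    · rw [← a1.1]; exact hi.2.1
  · rw [← b.2]
    apply le_antisymm
    · rw [← a1.2]; exact hi.1.2
    · rw [← a2.2]; exact hi.1.1

end Cfsg.Agent.Lib.Helper3
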