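import Mathlib

set_option autoImplicit false

namespace Cfsg.Agent.Lib.Helper3

/-- Relative trace argument: if a finite group `N` acts on an abelian group `V` and `S ≤ N` has
index prime to the orders of the elements of `V`, then the fixed points of `N` are a direct factor of
the fixed points of `S`. -/
theorem exists_fixed_complement {N V : Type*} [Group N] [Finite N] [CommGroup V]
    (act : N → V → V) (hact_mul : ∀ a b v, act (a * b) v = act a (act b v))
    (hact_vmul : ∀ a v w, act a (v * w) = act a v * act a w)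
    (S : Subgroup N) (hcop : ∀ v : V, (orderOf v).Coprime S.index) :
    ∃ W K Z : Subgroup V, (∀ v, v ∈ W ↔ ∀ n : N, act n v = v) ∧
      (∀ v, v ∈ Z ↔ ∀ s ∈ S, act s v = v) ∧ K ≤ Z ∧ W ⊓ K = ⊥ ∧ W ⊔ K = Z := by
  classical
  have hfin : Fintype (N ⧸ S) := Fintype.ofFinite _
  obtain ⟨φ, hφ⟩ : ∃ φ : N → (V →* V), ∀ a v, φ a v = act a v :=
    ⟨fun a => MonoidHom.mk' (act a) (hact_vmul a), fun a v => rfl⟩
  have hact_one : ∀ a, act a 1 = 1 := fun a => by rw [← hφ, map_one]
  have hact_inv : ∀ a v, act a v⁻¹ = (act a v)⁻¹ := fun a v => by rw [← hφ, map_inv, hφ]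
  have hact_pow : ∀ a v (k : ℕ), act a (v ^ k) = (act a v) ^ k := fun a v k => by
    rw [← hφ, map_pow, hφ]
  obtain ⟨T, hT⟩ : ∃ T : V → V, T = fun v => ∏ q : N ⧸ S, act (Quotient.out q : N) v := ⟨_, rfl⟩
  have hTmul : ∀ a b, T (a * b) = T a * T b := by
    intro a b
    rw [hT]
    simp only [hact_vmul]
    exact Finset.prod_mul_distrib
  have hTinv : ∀ a, T a⁻¹ = (T a)⁻¹ := by
    intro a
    rw [hT]
    simp only [hact_inv]
    exact Finset.prod_inv_distrib _
  have hTfix : ∀ v, (∀ s ∈ S, act s v = v) → ∀ n : N, act n (T v) = T v := by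
    intro v hv n
    rw [hT]
    simp only
    rw [← hφ, map_prod]
    have h1 : ∀ q : N ⧸ S, φ n (act (Quotient.out q : N) v) = act (Quotient.out (n • q) : N) v := by
      intro q
      obtain ⟨h, hh⟩ := QuotientGroup.mk_out_eq_mul S (n * Quotient.out q)
      have h2 : ((n * Quotient.out q : N) : N ⧸ S) = n • q := by
        conv_rhs => rw [← QuotientGroup.out_eq' q]
        rfl
      rw [h2] at hh
      rw [hφ, hh, hact_mul, hact_mul, hv h h.2]
    simp only [h1]
    exact Function.Bijective.prod_comp (MulAction.bijective (α := N) (β := N ⧸ S) n)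
      (fun q : N ⧸ S => act (Quotient.out q : N) v)
  have hTW : ∀ v, (∀ n : N, act n v = v) → T v = v ^ S.index := by
    intro v hv
    rw [hT]
    simp only [hv]
    rw [Finset.prod_const, Finset.card_univ, Subgroup.index, Nat.card_eq_fintype_card]
  obtain ⟨W, hW⟩ : ∃ W : Subgroup V, ∀ v, v ∈ W ↔ ∀ n : N, act n v = v :=
    ⟨{ carrier := {v | ∀ n : N, act n v = v}
       mul_mem' := fun {a b} ha hb n => by rw [hact_vmul, ha n, hb n]
       one_mem' := fun n => hact_one n
       inv_mem' := fun {a} ha n => by rw [hact_inv, ha n] }, fun v => Iff.rfl⟩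
  obtain ⟨Z, hZ⟩ : ∃ Z : Subgroup V, ∀ v, v ∈ Z ↔ ∀ s ∈ S, act s v = v :=
    ⟨{ carrier := {v | ∀ s ∈ S, act s v = v}
       mul_mem' := fun {a b} ha hb n hn => by rw [hact_vmul, ha n hn, hb n hn]
       one_mem' := fun n _ => hact_one n
       inv_mem' := fun {a} ha n hn => by rw [hact_inv, ha n hn] }, fun v => Iff.rfl⟩
  obtain ⟨K, hK⟩ : ∃ K : Subgroup V, ∀ v, v ∈ K ↔ ((∀ s ∈ S, act s v = v) ∧ T v = 1) :=
    ⟨{ carrier := {v | (∀ s ∈ S, act s v = v) ∧ T v = 1}
       mul_mem' := fun {a b} ha hb =>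
         ⟨fun n hn => by rw [hact_vmul, ha.1 n hn, hb.1 n hn], by rw [hTmul, ha.2, hb.2, one_mul]⟩
       one_mem' := ⟨fun n _ => hact_one n, by
         have := hTmul 1 1
         rw [one_mul] at this
         exact (mul_eq_left.mp this.symm)⟩
       inv_mem' := fun {a} ha =>
         ⟨fun n hn => by rw [hact_inv, ha.1 n hn], by rw [hTinv, ha.2, inv_one]⟩ }, fun v => Iff.rfl⟩
  have hWZ : W ≤ Z := fun v hv => (hZ v).mpr (fun s _ => (hW v).mp hv s)
  have hKZ : K ≤ Z := fun v hv => (hZ v).mpr ((hK v).mp hv).1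
  refine ⟨W, K, Z, hW, hZ, hKZ, ?_, ?_⟩
  · rw [eq_bot_iff]
    rintro v ⟨hvW, hvK⟩
    have h1 := hTW v ((hW v).mp hvW)
    rw [((hK v).mp hvK).2] at h1
    have h2 : orderOf v ∣ S.index := orderOf_dvd_of_pow_eq_one h1.symm
    have h3 : orderOf v = 1 := Nat.Coprime.eq_one_of_dvd (hcop v) h2
    exact orderOf_eq_one_iff.mp h3
  · apply le_antisymm (sup_le hWZ hKZ)
    intro z hz
    have hzS := (hZ z).mp hz
    have htW := hTfix z hzS
    obtain ⟨m', hm'⟩ := exists_pow_eq_self_of_coprime (hcop (T z)).symm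
    have hwW : (T z) ^ m' ∈ W := by
      rw [hW]
      intro n
      rw [hact_pow, htW n]
    have hTw : T ((T z) ^ m') = T z := by
      rw [hTW _ ((hW _).mp hwW), ← pow_mul, mul_comm, pow_mul, hm']
    have hk : ((T z) ^ m')⁻¹ * z ∈ K := by
      rw [hK]
      refine ⟨((hZ _).mp (Subgroup.mul_mem _ (Subgroup.inv_mem _ (hWZ hwW)) hz)), ?_⟩
      rw [hTmul, hTinv, hTw, inv_mul_cancel]
    have e : z = (T z) ^ m' * (((T z) ^ m')⁻¹ * z) := by group
    rw [e]
    exact Subgroup.mul_mem_sup hwW hk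

end Cfsg.Agent.Lib.Helper3
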