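import Mathlib
import Cfsg.Prelude.Def_ConjugacyFunctors
import Cfsg.Agent.Lib.Helper3.IndexP
import Cfsg.Agent.Lib.Helper3.LocGlob

set_option autoImplicit false
universe u

namespace Cfsg.Agent.Lib.Helper3

/-- The functor induced on a finite group by an isomorphism-invariant `p`-group functor is a
conjugacy functor. -/
theorem inducedFunctor_isConjugacyFunctor {Y : Type u} [Group Y] [Finite Y] {p : ℕ}
    (W : ∀ (Q : Type u) [Group Q], Subgroup Q) (hW : Cfsg.IsCharPFunctor.{u} p W) :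
    Cfsg.IsConjugacyFunctor p (Cfsg.inducedFunctor (G := Y) W) := by
  intro P hP
  refine ⟨?_, ?_, ?_⟩
  · rintro _ ⟨x, -, rfl⟩
    exact x.2
  · intro hne h0
    have h1 : W ↥P = ⊥ := (Subgroup.map_eq_bot_iff_of_injective _ P.subtype_injective).mp h0
    have hnt : Nontrivial ↥P := (Subgroup.nontrivial_iff_ne_bot P).mpr hne
    exact hW.1 ↥P hP hnt h1
  · intro g
    have h1 := hW.2 ↥P ↥(P.map (MulAut.conj g).toMonoidHom) hP
      (P.equivMapOfInjective _ (MulAut.conj g).injective)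
    show (W ↥(P.map (MulAut.conj g).toMonoidHom)).map (Subgroup.subtype _) =
      ((W ↥P).map P.subtype).map (MulAut.conj g).toMonoidHom
    rw [← h1, Subgroup.map_map, Subgroup.map_map]
    rfl

/-- A subgroup of a section of `G` is isomorphic to a section of `G`. -/
theorem section_subgroup_iso {G : Type u} [Group G] (K R : Subgroup G)
    [hR : (R.subgroupOf K).Normal] (M : Subgroup (↥K ⧸ R.subgroupOf K)) :
    ∃ K₁ : Subgroup G, ∃ hn : (R.subgroupOf K₁).Normal,
      Nonempty ((↥K₁ ⧸ R.subgroupOf K₁) ≃* ↥M) := by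
  obtain ⟨C, hC⟩ : ∃ C : Subgroup ↥K, C = M.comap (QuotientGroup.mk' (R.subgroupOf K)) :=
    ⟨_, rfl⟩
  obtain ⟨K₁, hK₁⟩ : ∃ K₁ : Subgroup G, K₁ = C.map K.subtype := ⟨_, rfl⟩
  have hle : K₁ ≤ K := by
    rw [hK₁]; rintro _ ⟨y, -, rfl⟩; exact y.2
  have hmem : ∀ x : ↥K₁,
      ((QuotientGroup.mk' (R.subgroupOf K)).comp (Subgroup.inclusion hle)) x ∈ M := by
    intro x
    have hx0 : ∀ z : G, z ∈ K₁ → z ∈ C.map K.subtype := fun z hz => by
      rw [hK₁] at hz; exact hz
    obtain ⟨y, hy, hyx⟩ := hx0 x.1 x.2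
    have h1 : Subgroup.inclusion hle x = y := Subtype.ext hyx.symm
    show QuotientGroup.mk' (R.subgroupOf K) (Subgroup.inclusion hle x) ∈ M
    rw [h1]
    rw [hC] at hy
    exact hy
  obtain ⟨φ, hφ⟩ : ∃ φ : ↥K₁ →* ↥M, ∀ x, (φ x : ↥K ⧸ R.subgroupOf K) =
      QuotientGroup.mk' (R.subgroupOf K) (Subgroup.inclusion hle x) :=
    ⟨((QuotientGroup.mk' (R.subgroupOf K)).comp (Subgroup.inclusion hle)).codRestrict M hmem,
      fun x => rfl⟩
  have hsurj : Function.Surjective φ := by
    rintro ⟨m, hm⟩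
    obtain ⟨y, rfl⟩ := QuotientGroup.mk'_surjective (R.subgroupOf K) m
    have hy : y ∈ C := by rw [hC]; exact hm
    refine ⟨⟨y.1, by rw [hK₁]; exact ⟨y, hy, rfl⟩⟩, ?_⟩
    apply Subtype.ext
    rw [hφ]
    rfl
  have hker : φ.ker = R.subgroupOf K₁ := by
    ext x
    rw [MonoidHom.mem_ker, Subgroup.mem_subgroupOf]
    constructor
    · intro h
      have h1 : QuotientGroup.mk' (R.subgroupOf K) (Subgroup.inclusion hle x) = 1 := by
        rw [← hφ, h]; rfl
      rw [QuotientGroup.mk'_apply, QuotientGroup.eq_one_iff, Subgroup.mem_subgroupOf] at h1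
      exact h1
    · intro h
      apply Subtype.ext
      rw [hφ]
      show QuotientGroup.mk' (R.subgroupOf K) (Subgroup.inclusion hle x) = 1
      rw [QuotientGroup.mk'_apply, QuotientGroup.eq_one_iff, Subgroup.mem_subgroupOf]
      exact h
  have hn : (R.subgroupOf K₁).Normal := by rw [← hker]; exact MonoidHom.normal_ker φ
  refine ⟨K₁, hn, ⟨?_⟩⟩
  exact (QuotientGroup.quotientMulEquivOfEq hker.symm).trans
    (QuotientGroup.quotientKerEquivOfSurjective φ hsurj)

/-- A quotient of a section of `G` is isomorphic to a section of `G`. -/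
theorem section_quotient_iso {G : Type u} [Group G] (K R : Subgroup G)
    [hR : (R.subgroupOf K).Normal] (Z : Subgroup (↥K ⧸ R.subgroupOf K)) [hZ : Z.Normal] :
    ∃ R₂ : Subgroup G, ∃ hn : (R₂.subgroupOf K).Normal,
      Nonempty ((↥K ⧸ R₂.subgroupOf K) ≃* (↥K ⧸ R.subgroupOf K) ⧸ Z) := by
  obtain ⟨C, hC⟩ : ∃ C : Subgroup ↥K, C = Z.comap (QuotientGroup.mk' (R.subgroupOf K)) :=
    ⟨_, rfl⟩
  obtain ⟨R₂, hR₂⟩ : ∃ R₂ : Subgroup G, R₂ = C.map K.subtype := ⟨_, rfl⟩
  have hsub : R₂.subgroupOf K = C := by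
    ext x
    rw [Subgroup.mem_subgroupOf, hR₂]
    constructor
    · rintro ⟨y, hy, hyx⟩
      have h1 : y = x := Subtype.ext hyx
      rw [← h1]; exact hy
    · intro hx; exact ⟨x, hx, rfl⟩
  obtain ⟨ψ, hψ⟩ : ∃ ψ : ↥K →* (↥K ⧸ R.subgroupOf K) ⧸ Z, ∀ x, ψ x =
      QuotientGroup.mk' Z (QuotientGroup.mk' (R.subgroupOf K) x) :=
    ⟨(QuotientGroup.mk' Z).comp (QuotientGroup.mk' (R.subgroupOf K)), fun x => rfl⟩
  have hsurj : Function.Surjective ψ := by
    intro q
    obtain ⟨m, rfl⟩ := QuotientGroup.mk'_surjective Z q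
    obtain ⟨y, rfl⟩ := QuotientGroup.mk'_surjective (R.subgroupOf K) m
    exact ⟨y, hψ y⟩
  have hker : ψ.ker = R₂.subgroupOf K := by
    rw [hsub, hC]
    ext x
    rw [MonoidHom.mem_ker, Subgroup.mem_comap, hψ, QuotientGroup.mk'_apply,
      QuotientGroup.eq_one_iff]
  have hn : (R₂.subgroupOf K).Normal := by rw [← hker]; exact MonoidHom.normal_ker ψ
  refine ⟨R₂, hn, ⟨?_⟩⟩
  exact (QuotientGroup.quotientMulEquivOfEq hker.symm).trans
    (QuotientGroup.quotientKerEquivOfSurjective ψ hsurj)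

/-- `G` itself is the section `⊤ / ⊥`. -/
theorem top_bot_section_iso (G : Type u) [Group G] :
    ∃ hn : ((⊥ : Subgroup G).subgroupOf ⊤).Normal,
      Nonempty ((↥(⊤ : Subgroup G) ⧸ (⊥ : Subgroup G).subgroupOf ⊤) ≃* G) := by
  have hker : ((⊤ : Subgroup G).subtype).ker = (⊥ : Subgroup G).subgroupOf ⊤ := by
    rw [Subgroup.ker_subtype, Subgroup.bot_subgroupOf]
  have hn : ((⊥ : Subgroup G).subgroupOf ⊤).Normal := by
    rw [← hker]; exact MonoidHom.normal_ker _
  have hsurj : Function.Surjective (⊤ : Subgroup G).subtype :=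
    fun g => ⟨⟨g, Subgroup.mem_top g⟩, rfl⟩
  exact ⟨hn, ⟨(QuotientGroup.quotientMulEquivOfEq hker.symm).trans
    (QuotientGroup.quotientKerEquivOfSurjective _ hsurj)⟩⟩

/-- A normal subgroup of index prime to `p` contains every `p`-subgroup. -/
theorem le_of_normal_of_not_dvd_index {Y : Type*} [Group Y] [Finite Y] {p : ℕ} [Fact p.Prime]
    (N T : Subgroup Y) [N.Normal] (hT : IsPGroup p T) (hN : ¬ p ∣ N.index) : T ≤ N := by
  intro t ht
  rw [← QuotientGroup.eq_one_iff (N := N)]
  obtain ⟨k, hk⟩ := hT ⟨t, ht⟩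
  have h1 : (t : Y ⧸ N) ^ p ^ k = 1 := by
    rw [← QuotientGroup.mk_pow]
    have h0 : t ^ p ^ k = 1 := congrArg Subtype.val hk
    rw [h0]; rfl
  have h2 : orderOf (t : Y ⧸ N) ∣ p ^ k := orderOf_dvd_of_pow_eq_one h1
  have h3 : orderOf (t : Y ⧸ N) ∣ N.index := orderOf_dvd_natCard (t : Y ⧸ N)
  have hcop : Nat.Coprime (p ^ k) N.index :=
    Nat.Coprime.pow_left k ((Nat.Prime.coprime_iff_not_dvd Fact.out).mpr hN)
  have h5 := Nat.dvd_gcd h2 h3
  rw [Nat.Coprime.gcd_eq_one hcop] at h5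
  exact orderOf_eq_one_iff.mp (Nat.dvd_one.mp h5)

/-- A normal Sylow `p`-subgroup centralized by all `p'`-elements: the group has a normal
subgroup of index `p`. -/
theorem hasIndexP_of_normal_sylow {Y : Type*} [Group Y] [Finite Y] {p : ℕ} [Fact p.Prime]
    (T : Subgroup Y) [hTn : T.Normal] (hT : IsPGroup p T) (hidx : ¬ p ∣ T.index) (hne : T ≠ ⊥)
    (hcent : ∀ g : Y, (orderOf g).Coprime p → g ∈ Subgroup.centralizer (T : Set Y)) :
    HasIndexP p Y := by
  have hp := (Fact.out : p.Prime)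
  obtain ⟨k, hk⟩ := IsPGroup.iff_card.mp hT
  have hpc : Nat.Coprime p T.index := (Nat.Prime.coprime_iff_not_dvd hp).mpr hidx
  have hcop : Nat.Coprime (Nat.card T) T.index := by
    rw [hk]; exact Nat.Coprime.pow_left k hpc
  obtain ⟨H, hH⟩ := Subgroup.exists_right_complement'_of_coprime hcop
  have hcm := hH.card_mul_card
  have hci := Subgroup.card_mul_index T
  have hTpos : 0 < Nat.card T := Nat.card_pos
  have hHcard : Nat.card H = T.index := by
    have : Nat.card T * Nat.card H = Nat.card T * T.index := by rw [hcm, hci]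
    exact Nat.eq_of_mul_eq_mul_left hTpos this
  have hHcent : H ≤ Subgroup.centralizer (T : Set Y) := by
    intro h hh
    apply hcent
    have h1 : orderOf h ∣ Nat.card H := by
      have := orderOf_dvd_natCard (⟨h, hh⟩ : H)
      rwa [Subgroup.orderOf_mk] at this
    rw [hHcard] at h1
    exact Nat.Coprime.coprime_dvd_left h1 hpc.symm
  have hHn : H.Normal := by
    constructor
    intro h hh y
    obtain ⟨⟨t, h'⟩, hth⟩ := hH.2 y
    have hth' : (t : Y) * (h' : Y) = y := hth
    have hu : (h' : Y) * h * (h' : Y)⁻¹ ∈ H := H.mul_mem (H.mul_mem h'.2 hh) (H.inv_mem h'.2)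
    have hc := (Subgroup.mem_centralizer_iff.mp (hHcent hu)) t t.2
    have e : y * h * y⁻¹ = (h' : Y) * h * (h' : Y)⁻¹ := by
      rw [← hth']
      calc (t : Y) * (h' : Y) * h * ((t : Y) * (h' : Y))⁻¹
          = ((t : Y) * ((h' : Y) * h * (h' : Y)⁻¹)) * (t : Y)⁻¹ := by group
        _ = (((h' : Y) * h * (h' : Y)⁻¹) * (t : Y)) * (t : Y)⁻¹ := by rw [hc]
        _ = (h' : Y) * h * (h' : Y)⁻¹ := by group
    rw [e]; exact hu
  have hHidx : H.index = p ^ k := by
    have h1 := Subgroup.card_mul_index H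
    have : Nat.card H * H.index = Nat.card H * Nat.card T := by
      rw [h1, ← hcm, mul_comm]
    rw [← hk]
    exact Nat.eq_of_mul_eq_mul_left Nat.card_pos this
  have hk0 : k ≠ 0 := by
    intro h0
    rw [h0, pow_zero] at hk
    exact hne ((Subgroup.eq_bot_iff_card T).mpr hk)
  have hHtop : H ≠ ⊤ := by
    intro h
    rw [h, Subgroup.index_top] at hHidx
    have : 1 < p ^ k := Nat.one_lt_pow hk0 hp.one_lt
    omega
  exact hasIndexP_of_pgroup_quotient H hHtop (IsPGroup.of_card (n := k) hHidx)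

/-- The inductive step for: control of transfer in all sections and `N(S)/C(S)` a `p`-group give
a normal subgroup of index `p`. -/
theorem hasIndexP_core {Y : Type u} [Group Y] [Finite Y] {p : ℕ} [Fact p.Prime]
    (W : ∀ (Q : Type u) [Group Q], Subgroup Q) (hW : Cfsg.IsCharPFunctor.{u} p W)
    (hctl : Cfsg.ControlsTransferIn p (Cfsg.inducedFunctor (G := Y) W) ⊤)
    (IH1 : ∀ M : Subgroup Y, M ≠ ⊤ → AutPCond p ↥M → HasIndexP p ↥M)
    (IH2 : ∀ (Z : Subgroup Y) [Z.Normal], Z ≠ ⊥ → AutPCond p (Y ⧸ Z) → HasIndexP p (Y ⧸ Z))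
    (h : AutPCond p Y) : HasIndexP p Y := by
  have hp := (Fact.out : p.Prime)
  obtain ⟨T, hT, hidx, hne, hN⟩ := h
  have hWf := inducedFunctor_isConjugacyFunctor (Y := Y) W hW
  obtain ⟨Z, hZdef⟩ : ∃ Z : Subgroup Y, Z = Cfsg.inducedFunctor (G := Y) W T := ⟨_, rfl⟩
  have hZle : Z ≤ T := by rw [hZdef]; exact (hWf T hT).1
  have hZne : Z ≠ ⊥ := by rw [hZdef]; exact (hWf T hT).2.1 hne
  have hTM : T ≤ Subgroup.normalizer (Z : Set Y) := by
    rw [hZdef]
    exact (Subgroup.le_normalizer).trans (normalizer_le_normalizer_functor hWf T hT)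
  have key := controls_tr_sylow hWf ⊤ T hctl le_top hT
    (by rw [Subgroup.relIndex_top_right]; exact hidx)
  rw [← hZdef, top_inf_eq] at key
  by_cases hM : Subgroup.normalizer (Z : Set Y) = ⊤
  · have hZn : Z.Normal := Subgroup.normalizer_eq_top_iff.mp hM
    by_cases hZT : Z = T
    · have hTn : T.Normal := hZT ▸ hZn
      refine hasIndexP_of_normal_sylow T hT hidx hne ?_
      intro g hg
      apply hN g _ hg
      rw [Subgroup.normalizer_eq_top_iff.mpr hTn]; exact Subgroup.mem_top g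
    · have hA : AutPCond p (Y ⧸ Z) := by
        refine ⟨T.map (QuotientGroup.mk' Z), hT.map _, ?_, ?_, ?_⟩
        · intro hdvd
          exact hidx (dvd_trans hdvd (Subgroup.index_map_dvd T (QuotientGroup.mk'_surjective Z)))
        · intro h0
          rw [Subgroup.map_eq_bot_iff, QuotientGroup.ker_mk'] at h0
          exact hZT (le_antisymm hZle h0)
        · intro ybar hybar hcop
          obtain ⟨y, rfl, hy⟩ := exists_pprime_lift Z ybar hcop
          have hyN : y ∈ Subgroup.normalizer (T : Set Y) := by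
            apply mem_normalizer_of_forall_conj_mem
            intro a ha
            have h1 : (QuotientGroup.mk' Z) y * (QuotientGroup.mk' Z) a *
                ((QuotientGroup.mk' Z) y)⁻¹ ∈ T.map (QuotientGroup.mk' Z) :=
              (Subgroup.mem_normalizer_iff.mp hybar _).mp (Subgroup.mem_map_of_mem _ ha)
            obtain ⟨s, hs, hs2⟩ := h1
            have h2 : s⁻¹ * (y * a * y⁻¹) ∈ Z := by
              rw [← QuotientGroup.eq]
              exact hs2
            have h3 : y * a * y⁻¹ = s * (s⁻¹ * (y * a * y⁻¹)) := by group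
            rw [h3]; exact T.mul_mem hs (hZle h2)
          have hc := hN y hyN hy
          rw [Subgroup.mem_centralizer_iff] at hc ⊢
          rintro _ ⟨t, ht, rfl⟩
          have h4 := hc t ht
          show (QuotientGroup.mk' Z) t * (y : Y ⧸ Z) = (y : Y ⧸ Z) * (QuotientGroup.mk' Z) t
          rw [QuotientGroup.mk'_apply, ← QuotientGroup.mk_mul, ← QuotientGroup.mk_mul, h4]
      exact hasIndexP_of_surjective (QuotientGroup.mk' Z) (QuotientGroup.mk'_surjective Z)
        (IH2 Z hZne hA)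
  · obtain ⟨M, hMdef⟩ : ∃ M : Subgroup Y, M = Subgroup.normalizer (Z : Set Y) := ⟨_, rfl⟩
    rw [← hMdef] at key hTM hM
    have hA : AutPCond p ↥M := by
      refine ⟨T.subgroupOf M, hT.comap_subtype, ?_, ?_, ?_⟩
      · intro hdvd
        apply hidx
        exact dvd_trans hdvd (Subgroup.relIndex_dvd_index_of_le hTM)
      · intro h0
        rw [Subgroup.subgroupOf_eq_bot] at h0
        apply hne
        have h1 := h0.eq_bot
        rwa [inf_eq_left.mpr hTM] at h1
      · intro g hg hcop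
        have hg1 : (g : Y) ∈ Subgroup.normalizer (T : Set Y) := by
          apply mem_normalizer_of_forall_conj_mem
          intro a ha
          have h1 := (Subgroup.mem_normalizer_iff.mp hg ⟨a, hTM ha⟩).mp
            (by rw [Subgroup.mem_subgroupOf]; exact ha)
          rw [Subgroup.mem_subgroupOf] at h1
          exact h1
        have hc := hN g.1 hg1 (by rw [Subgroup.orderOf_coe]; exact hcop)
        rw [Subgroup.mem_centralizer_iff] at hc ⊢
        intro m hm
        apply Subtype.ext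
        exact hc m.1 (Subgroup.mem_subgroupOf.mp hm)
    obtain ⟨N₁, hN₁, hN₁idx⟩ := IH1 M hM hA
    have := hN₁
    have hcomm : commutator ↥M ≤ N₁ := by
      apply Subgroup.Normal.quotient_commutative_iff_commutator_le.mp
      have hc : Nat.card (↥M ⧸ N₁) = p := hN₁idx
      have : IsCyclic (↥M ⧸ N₁) := isCyclic_of_prime_card hc
      exact IsCyclic.isMulCommutative
    have hTnot : ¬ T ≤ ⁅M, M⁆ := by
      intro hle
      have h1 : T.subgroupOf M ≤ N₁ := by
        intro x hx
        apply hcomm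
        have hx1 : (x : Y) ∈ ⁅M, M⁆ := hle (Subgroup.mem_subgroupOf.mp hx)
        rw [← Subgroup.map_subtype_commutator] at hx1
        obtain ⟨y, hy, hyx⟩ := hx1
        have h2 : y = x := Subtype.ext hyx
        rw [← h2]; exact hy
      have h2 : N₁.index ∣ (T.subgroupOf M).index := Subgroup.index_dvd_of_le h1
      rw [hN₁idx] at h2
      exact hidx (dvd_trans h2 (Subgroup.relIndex_dvd_index_of_le hTM))
    apply hasIndexP_of_dvd_index_commutator
    by_contra hnd
    have h1 : T ≤ commutator Y := le_of_normal_of_not_dvd_index (commutator Y) T hT hnd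
    apply hTnot
    have h2 : T ≤ T ⊓ ⁅(⊤ : Subgroup Y), ⊤⁆ := le_inf le_rfl h1
    rw [key] at h2
    exact h2.trans inf_le_right

end Cfsg.Agent.Lib.Helper3
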