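import Mathlib

set_option autoImplicit false

namespace Cfsg.Agent.Lib.Helper3

open Module Submodule LinearMap

section sqz

variable {F : Type*} [Field F] {V : Type*} [AddCommGroup V] [Module F V] [FiniteDimensional F V]

/-- Normal form basis of a square-zero endomorphism. -/
theorem sqz_basis (N : V →ₗ[F] V) (hN : ∀ x, N (N x) = 0) :
    ∃ (r k : ℕ) (B : Basis (Fin r ⊕ Fin r ⊕ Fin k) F V), r = finrank F (LinearMap.range N) ∧
      (∀ i, N (B (Sum.inl i)) = B (Sum.inr (Sum.inl i))) ∧
      (∀ i, N (B (Sum.inr (Sum.inl i))) = 0) ∧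
      (∀ j, N (B (Sum.inr (Sum.inr j))) = 0) := by
  classical
  obtain ⟨R, hR⟩ : ∃ R, R = LinearMap.range N := ⟨_, rfl⟩
  obtain ⟨K, hK⟩ : ∃ K, K = LinearMap.ker N := ⟨_, rfl⟩
  have hRK : R ≤ K := by
    rw [hR, hK]
    rintro _ ⟨x, rfl⟩
    exact LinearMap.mem_ker.mpr (hN x)
  let bR : Basis (Fin (finrank F R)) F R := Module.finBasis F R
  obtain ⟨u, hu_def⟩ : ∃ u : Fin (finrank F R) → V, u = fun i => (bR i : V) := ⟨_, rfl⟩
  have hu : LinearIndependent F u := by
    rw [hu_def]
    exact bR.linearIndependent.map' R.subtype (Submodule.ker_subtype R)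
  have hspu : span F (Set.range u) = R := by
    have h1 : Set.range u = R.subtype '' Set.range bR := by
      rw [hu_def, ← Set.range_comp]
      rfl
    rw [h1, ← Submodule.map_span, bR.span_eq, Submodule.map_subtype_top]
  have hc : ∀ i, ∃ c, N c = u i := by
    intro i
    have hm : u i ∈ LinearMap.range N := by
      rw [← hR, hu_def]
      exact (bR i).2
    exact hm
  choose c hc using hc
  obtain ⟨D₀, hD₀⟩ := Submodule.exists_isCompl R
  obtain ⟨D, hD⟩ : ∃ D, D = D₀ ⊓ K := ⟨_, rfl⟩
  have hRD : Disjoint R D := by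
    rw [hD]
    exact hD₀.disjoint.mono_right inf_le_left
  have hsup : R ⊔ D = K := by
    rw [hD, ← sup_inf_assoc_of_le D₀ hRK, hD₀.sup_eq_top, top_inf_eq]
  let bD : Basis (Fin (finrank F D)) F D := Module.finBasis F D
  obtain ⟨d, hd_def⟩ : ∃ d : Fin (finrank F D) → V, d = fun j => (bD j : V) := ⟨_, rfl⟩
  have hd : LinearIndependent F d := by
    rw [hd_def]
    exact bD.linearIndependent.map' D.subtype (Submodule.ker_subtype D)
  have hspd : span F (Set.range d) = D := by
    have h1 : Set.range d = D.subtype '' Set.range bD := by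
      rw [hd_def, ← Set.range_comp]
      rfl
    rw [h1, ← Submodule.map_span, bD.span_eq, Submodule.map_subtype_top]
  have hud : LinearIndependent F (Sum.elim u d) :=
    hu.sum_type hd (by rw [hspu, hspd]; exact hRD)
  have hspud : span F (Set.range (Sum.elim u d)) = K := by
    rw [Set.Sum.elim_range, span_union, hspu, hspd, hsup]
  have hcu : N ∘ c = u := funext hc
  have hcli : LinearIndependent F c := LinearIndependent.of_comp N (by rw [hcu]; exact hu)
  have hcK : Disjoint (span F (Set.range c)) K := by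
    rw [Submodule.disjoint_def]
    intro x hx hxK
    obtain ⟨g, rfl⟩ := (Submodule.mem_span_range_iff_exists_fun F).mp hx
    have h0 : ∑ i, g i • u i = 0 := by
      have h1 : N (∑ i, g i • c i) = 0 := by
        rw [hK] at hxK
        exact LinearMap.mem_ker.mp hxK
      rw [map_sum] at h1
      simpa only [map_smul, hc] using h1
    have hg := Fintype.linearIndependent_iff.mp hu g h0
    simp [hg]
  have hli : LinearIndependent F (Sum.elim c (Sum.elim u d)) :=
    hcli.sum_type hud (by rw [hspud]; exact hcK)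
  have hsp : ⊤ ≤ span F (Set.range (Sum.elim c (Sum.elim u d))) := by
    rw [Set.Sum.elim_range, span_union, hspud]
    intro x _
    have hx : N x ∈ span F (Set.range u) := by
      rw [hspu, hR]
      exact LinearMap.mem_range_self N x
    obtain ⟨g, hg⟩ := (Submodule.mem_span_range_iff_exists_fun F).mp hx
    have hk : x - ∑ i, g i • c i ∈ K := by
      rw [hK, LinearMap.mem_ker, map_sub, map_sum]
      simp only [map_smul, hc]
      rw [hg, sub_self]
    have hs : ∑ i, g i • c i ∈ span F (Set.range c) :=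
      Submodule.sum_mem _ (fun i _ => Submodule.smul_mem _ _ (Submodule.subset_span ⟨i, rfl⟩))
    have e : x = ∑ i, g i • c i + (x - ∑ i, g i • c i) := by abel
    rw [e]
    exact Submodule.add_mem_sup hs hk
  refine ⟨finrank F R, finrank F D, Basis.mk hli hsp, by rw [hR], ?_, ?_, ?_⟩
  · intro i
    rw [Basis.mk_apply, Basis.mk_apply]
    exact hc i
  · intro i
    rw [Basis.mk_apply]
    have hm : u i ∈ K := by
      rw [hu_def]
      exact hRK (bR i).2
    rw [hK] at hm
    exact LinearMap.mem_ker.mp hm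
  · intro j
    rw [Basis.mk_apply]
    have hm : d j ∈ K := by
      rw [hd_def]
      have hDK : D ≤ K := by
        rw [hD]
        exact inf_le_right
      exact hDK (bD j).2
    rw [hK] at hm
    exact LinearMap.mem_ker.mp hm

/-- Two square-zero endomorphisms of the same positive rank are conjugate by a map of
determinant one, over a field in which every element is a square. -/
theorem sqz_equiv (N₁ N₂ : V →ₗ[F] V) (h₁ : ∀ x, N₁ (N₁ x) = 0) (h₂ : ∀ x, N₂ (N₂ x) = 0)
    (hr : finrank F (LinearMap.range N₁) = finrank F (LinearMap.range N₂))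
    (hpos : 0 < finrank F (LinearMap.range N₁))
    (hsq : ∀ y : F, ∃ t : F, t * t = y) :
    ∃ g : V →ₗ[F] V, LinearMap.det g = 1 ∧ ∀ x, g (N₁ x) = N₂ (g x) := by
  classical
  obtain ⟨r₁, k₁, B₁, hr₁, a1, a2, a3⟩ := sqz_basis N₁ h₁
  obtain ⟨r₂, k₂, B₂, hr₂, b1, b2, b3⟩ := sqz_basis N₂ h₂
  have hrr : r₁ = r₂ := by rw [hr₁, hr₂, hr]
  subst hrr
  have hkk : k₁ = k₂ := by
    have e1 := Module.finrank_eq_card_basis B₁
    have e2 := Module.finrank_eq_card_basis B₂
    rw [e1] at e2
    simp only [Fintype.card_sum, Fintype.card_fin] at e2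
    omega
  subst hkk
  have hr0 : 0 < r₁ := by rw [hr₁]; exact hpos
  obtain ⟨φ, hφ_def⟩ : ∃ φ : V ≃ₗ[F] V, φ = B₁.equiv B₂ (Equiv.refl _) := ⟨_, rfl⟩
  have hφB : ∀ i, φ (B₁ i) = B₂ i := by
    intro i
    rw [hφ_def, Basis.equiv_apply, Equiv.refl_apply]
  have hφ : ∀ x, φ (N₁ x) = N₂ (φ x) := by
    have e : (φ : V →ₗ[F] V) ∘ₗ N₁ = N₂ ∘ₗ (φ : V →ₗ[F] V) := by
      apply B₁.ext
      intro i
      simp only [LinearMap.comp_apply, LinearEquiv.coe_coe]
      rcases i with i | i | j
      · rw [a1, hφB, hφB, b1]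
      · rw [a2, hφB, b2, map_zero]
      · rw [a3, hφB, b3, map_zero]
    intro x
    exact LinearMap.congr_fun e x
  have hdu : IsUnit (LinearMap.det (φ : V →ₗ[F] V)) := LinearEquiv.isUnit_det' φ
  obtain ⟨t, ht⟩ := hsq (LinearMap.det (φ : V →ₗ[F] V))⁻¹
  obtain ⟨w, hw_def⟩ : ∃ w : Fin r₁ ⊕ Fin r₁ ⊕ Fin k₁ → F,
      w = Sum.elim (fun i => if i = (⟨0, hr0⟩ : Fin r₁) then t else 1)
        (Sum.elim (fun i => if i = (⟨0, hr0⟩ : Fin r₁) then t else 1) (fun _ => 1)) := ⟨_, rfl⟩
  obtain ⟨χ, hχ_def⟩ : ∃ χ : V →ₗ[F] V, χ = B₂.constr F (fun i => w i • B₂ i) := ⟨_, rfl⟩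
  have hχB : ∀ i, χ (B₂ i) = w i • B₂ i := by
    intro i
    rw [hχ_def, Basis.constr_basis]
  have hχ : ∀ x, χ (N₂ x) = N₂ (χ x) := by
    have e : χ ∘ₗ N₂ = N₂ ∘ₗ χ := by
      apply B₂.ext
      intro i
      simp only [LinearMap.comp_apply]
      rcases i with i | i | j
      · rw [b1, hχB, hχB, map_smul, b1, hw_def]
        rfl
      · rw [b2, hχB, map_smul, b2, map_zero, smul_zero]
      · rw [b3, hχB, map_smul, b3, map_zero, smul_zero]
    intro x
    exact LinearMap.congr_fun e x
  have hdetχ : LinearMap.det χ = t * t := by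
    rw [← LinearMap.det_toMatrix B₂]
    have hm : LinearMap.toMatrix B₂ B₂ χ = Matrix.diagonal w := by
      ext i j
      rw [LinearMap.toMatrix_apply, hχB, map_smul, Basis.repr_self, Finsupp.smul_apply,
        Finsupp.single_apply, Matrix.diagonal_apply]
      by_cases hij : i = j
      · subst hij
        simp
      · have hji : ¬ j = i := fun h => hij h.symm
        simp [hij, hji]
    rw [hm, Matrix.det_diagonal, Fintype.prod_sum_type, Fintype.prod_sum_type, hw_def]
    simp
  refine ⟨χ ∘ₗ (φ : V →ₗ[F] V), ?_, ?_⟩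
  · rw [LinearMap.det_comp, hdetχ, ht]
    exact inv_mul_cancel₀ hdu.ne_zero
  · intro x
    simp only [LinearMap.comp_apply, LinearEquiv.coe_coe]
    rw [hφ, hχ]

end sqz

end Cfsg.Agent.Lib.Helper3
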